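import Cfsg.Agent.Chev.Flag
import Cfsg.Agent.Coprime.Glauberman
import Cfsg.Agent.BlockB.Height

/-! The value of the Steinberg character at a semisimple element. -/

namespace CF.Chev

open Finset CF.BN CF.Loc Cfsg
open scoped _root_.Classical

variable {B ι : Type} [Fintype B] [DecidableEq B] [Fintype ι] [DecidableEq ι]

namespace RootSys

variable {R : RootSys B ι} {I J : Set B} {w : Equiv.Perm ι}

/-- The support of `w⁻¹ Φ_J`. -/
def lo (R : RootSys B ι) (J : Set B) (w : Equiv.Perm ι) : Set B :=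
  {i | ∃ r, R.InSub J r ∧ R.vec (w⁻¹ r) i ≠ 0}

theorem lo_subset : R.lo J w ⊆ I ↔ ∀ r, R.InSub J r → R.InSub I (w⁻¹ r) :=
  ⟨fun h r hr _ hi => by_contra fun e => hi (h ⟨r, hr, e⟩), fun h _ ⟨r, hr, e⟩ => (h r hr).mem e⟩

theorem Lin.inSub_inter {f : ι → ℝ} (h : R.Lin f) (hd : ∀ j ∈ J, 0 ≤ f (R.simple j)) {r : ι}
    (hJ : R.InSub J r) (hr : f r = 0) : R.InSub (J ∩ R.zer f) r := by
  wlog hp : R.Pos r generalizing r
  · exact R.inSub_neg.1 (this (R.inSub_neg.2 hJ) (by rw [h.neg, hr, neg_zero])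
      ((R.pos_neg_iff r).2 hp))
  intro i hi
  by_contra e
  rw [h r, lev'_apply, sum_eq_zero_iff_of_nonneg fun i _ => by
    by_cases e : R.vec r i = 0
    · simp [e]
    · exact mul_nonneg (by exact_mod_cast hp i) (hd i (hJ.mem e))] at hr
  exact hi ⟨hJ.mem e, (mul_eq_zero.1 (hr i (mem_univ i))).resolve_left (by exact_mod_cast e)⟩

theorem conj_mem_WJ (hw : w ∈ R.Aut) {a : Equiv.Perm ι} (ha : a ∈ R.WJ J) :
    w⁻¹ * a * w ∈ R.WJ (R.lo J w) := by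
  refine (Subgroup.closure_le ((R.WJ (R.lo J w)).comap (MulAut.conj w⁻¹).toMonoidHom)).2 ?_ ha
  rintro _ ⟨j, hj, rfl⟩
  change w⁻¹ * _ * w⁻¹⁻¹ ∈ R.WJ _
  rw [← refl_simple, R.conj_refl (inv_mem hw)]
  exact R.refl_mem_WJ (lo_subset.1 le_rfl _ (R.inSub_simple.2 hj))

theorem lin_lev (J : Set B) (hw : w ∈ R.Aut) : R.Lin fun r => (lev J (R.vec (w r)) : ℝ) :=
  (lin_of_linear (lev J)).comp hw

theorem mem_WJ_of_mul_eq (hw : w ∈ R.Aut) (h : ∀ j ∈ J, R.Pos (w⁻¹ (R.simple j)))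
    {a b : Equiv.Perm ι} (ha : a ∈ R.WJ J) (hb : b ∈ R.WJ I) (e : a * w = w * b) :
    a ∈ R.WJ (J ∩ {j | R.InSub I (w⁻¹ (R.simple j))}) := by
  refine R.mem_WJ_of_invs (R.WJ_le_W J ha) fun r hr hr' => ?_
  have h1 : R.InSub J r := by_contra fun h1 => hr' (R.pos_WJ_of_not_inSub ha hr h1)
  have h2 := pos_of_inSub (inv_mem hw) h ((R.pos_neg_iff _).2 hr')
    (R.inSub_neg.2 ((R.inSub_WJ ha r).2 h1))
  rw [R.neg_aut (inv_mem hw), R.pos_neg_iff, show w⁻¹ (a r) = b (w⁻¹ r) from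
    congrArg (· r) (show w⁻¹ * a = b * w⁻¹ by rw [eq_mul_inv_iff_mul_eq, mul_assoc, e]; simp)] at h2
  have h3 : R.InSub I (w⁻¹ r) := by_contra fun h3 =>
    h2 (R.pos_WJ_of_not_inSub hb (pos_of_inSub (inv_mem hw) h hr h1) h3)
  convert (lin_lev I (inv_mem hw)).inSub_inter (fun j hj => by
    exact_mod_cast (R.lev_vec_nonneg_iff I _).2 (.inl (h j hj))) h1
      (by exact_mod_cast (R.lev_vec_eq_zero_iff I _).2 h3) using 2
  ext j
  simp [zer, lev_vec_eq_zero_iff]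

theorem pos_lg_lg {r : ι} (hr : R.Pos r) :
    R.Pos ((lg R J * lg R Set.univ)⁻¹ r) ↔ R.InSub J r := by
  rw [mul_inv_rev, lg_inv, lg_inv, Equiv.Perm.mul_apply, pos_lg_univ, pos_lg_iff hr, not_not]

theorem lo_eq_asc (hw : w ∈ R.W) : R.lo J w = R.asc w ↔ w = lg R J * lg R Set.univ := by
  have hw' := R.W_le_Aut hw
  have hf := (lin_lev J hw').smul (-1)
  have h0 : ∀ r, R.InSub J r → lev J (R.vec (w (w⁻¹ r))) = 0 := fun r hr => by
    simpa using (R.lev_vec_eq_zero_iff J r).2 hr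
  have h1 : ∀ r, ¬ R.Pos r → lev J (R.vec r) ≤ 0 := fun r hr =>
    not_lt.1 fun h => hr ((R.lev_vec_pos_iff J r).1 h).1
  constructor
  · intro h
    have hd : R.Dom ((-1 : ℝ) • fun r => (lev J (R.vec (w r)) : ℝ)) := fun i => by
      by_cases hi : i ∈ R.asc w
      · obtain ⟨r, hr, e⟩ := h.ge hi
        have := ((lin_lev J hw').inSub_inter (fun j hj => by
          exact_mod_cast (R.lev_vec_nonneg_iff J _).2 (.inl hj)) (lo_subset.1 h.le r hr)
          (by exact_mod_cast h0 r hr)).mem e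
        simpa using this.2.le
      · simpa using h1 _ hi
    refine inv_injective (eq_of_invs (inv_mem hw) (inv_mem (mul_mem (lg_mem_W J) (lg_mem_W _)))
      fun r hr => ?_)
    rw [pos_lg_lg hr]
    refine ⟨fun h2 => by_contra fun h3 => ?_, fun h2 => by_contra fun h3 => ?_⟩
    · simpa [((R.lev_vec_pos_iff J r).2 ⟨hr, h3⟩).not_ge] using hf.nonneg hd h2
    · have := pos_of_inSub hw' (J := R.asc w) (fun _ h => h) ((R.pos_neg_iff _).2 h3)
        (R.inSub_neg.2 (lo_subset.1 h.le r h2))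
      rw [R.neg_aut hw', R.pos_neg_iff] at this
      exact this (by simpa)
  · rintro rfl
    have h2 : ∀ i, ¬ R.Pos (lg R Set.univ (R.simple i)) := fun i h =>
      pos_lg_univ.1 h (R.pos_simple i)
    have h3 : ∀ i, i ∈ R.asc (lg R J * lg R Set.univ) ↔
        R.InSub J ((lg R J * lg R Set.univ) (R.simple i)) := fun i => by
      rw [asc, Set.mem_ofPred_eq, Equiv.Perm.mul_apply, inSub_lg, ← R.inSub_neg, ← not_iff_not,
        ← pos_lg_iff ((R.pos_neg_iff _).2 (h2 i)), R.neg_aut (lg_mem_Aut J), R.pos_neg_iff]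
    refine (lo_subset.2 fun r hr => ?_).antisymm fun i hi => ⟨_, (h3 i).1 hi, by simp [R.vec_simple]⟩
    convert hf.inSub_of_eq_zero (fun i => ?_) (r := (lg R J * lg R Set.univ)⁻¹ r)
      (by simpa using (R.lev_vec_eq_zero_iff J r).2 hr) using 1
    · ext i
      simp [h3, zer, lev_vec_eq_zero_iff]
    · by_cases hi : i ∈ R.asc (lg R J * lg R Set.univ)
      · simpa using ((R.lev_vec_eq_zero_iff J _).2 ((h3 i).1 hi)).le
      · simpa using h1 _ hi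

end RootSys

variable {C : ChevBasis B ι} {K : Type*} [Field K] {G : Type*} [Group G] {ρ : StRep C K G}

namespace StRep

variable {I J : Set B} {w : Equiv.Perm ι} {s u : G}

theorem exists_Uw_lo (hw : w ∈ C.W) {x : G} (hx : x ∈ ρ.PJ J) :
    ∃ u ∈ ρ.Uw w⁻¹, (u * ρ.nc w)⁻¹ * (x * ρ.nc w) ∈ ρ.PJ (C.lo J w) := by
  have hn := nW_wd (ρ := ρ) hw
  obtain ⟨a, ha, hx⟩ := mem_PJ_iff.1 hx
  obtain ⟨a', ha', h⟩ := mul_mem_cell_WJ ha hx hn.mem_cell
  obtain ⟨m, hm⟩ := ρ.exists_nW (C.WJ_le_W J ha')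
  obtain ⟨b, hb, b', hb', e⟩ := (hm.mul hn).mem_cell_iff.1 h
  obtain ⟨u, hu, b'', hb'', e'⟩ := hn.mem_cell_iff_sharp'.1 (cell_mul_left hb hn.mem_cell)
  refine ⟨u, hu, ?_⟩
  convert mul_mem (mul_mem (ρ.Bo_le_PJ _ hb'') (((hn.inv.mul hm).mul hn).mem_PJ
    (RootSys.conj_mem_WJ (C.W_le_Aut hw) ha'))) (ρ.Bo_le_PJ _ hb') using 1
  rw [e, show b = u * ρ.nc w * b'' * (ρ.nc w)⁻¹ by rw [← e']; group]
  group

theorem lo_subset_of_min (hρ : ρ.Faithful) (hs : s ∈ ρ.PJ J)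
    (hm : ∀ g ∈ ρ.PJ J, ∀ I ⊆ J, g⁻¹ * s * g ∈ ρ.PJ I → J ⊆ I) (hw : w ∈ C.W) (hu : u ∈ ρ.Up)
    (h : (u * ρ.nc w)⁻¹ * (s * (u * ρ.nc w)) ∈ ρ.PJ I) : C.lo J w ⊆ I := by
  obtain ⟨v, hv, h1⟩ := C.exists_min_coset J (C.W_le_Aut hw)
  obtain ⟨m, hm'⟩ := ρ.exists_nW (C.WJ_le_W J hv)
  have hn := hm'.mul (nW_wd (ρ := ρ) hw)
  have hw' := C.W_le_Aut hn.mem_W
  have hg : u * m⁻¹ ∈ ρ.PJ J := mul_mem (ρ.Bo_le_PJ J (ρ.Up_le_Bo hu)) (inv_mem (hm'.mem_PJ hv))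
  obtain ⟨a, ha, h2⟩ := mem_PJ_iff.1 (mul_mem (mul_mem (inv_mem hg) hs) hg)
  obtain ⟨b, hb, h3⟩ := mem_PJ_iff.1 (inv_mem h)
  obtain ⟨b', hb', h4⟩ := mul_mem_cell_WJ hb h3 hn.inv.mem_cell
  obtain ⟨n, hn'⟩ := ρ.exists_nW (C.WJ_le_W J ha)
  obtain ⟨c, hc, x, hx, e⟩ := hn'.mem_cell_iff_sharp.1 h2
  have h5 := cell_mul_right (cell_mul_left hc (hn'.mul hn).mem_cell) (ρ.Up_le_Bo
    (hn.acts.inv_conj_mem_U (T := {r | C.Pos r}) (fun r hr => pos_of_inSub (inv_mem hw') h1 hr.1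
      (by_contra fun h => hr.2 (C.pos_WJ_of_not_inSub ha hr.1 h))) hx))
  have h6 := cell_unique hρ h5 (by
    convert cell_inv h4 using 1
    rw [show c = (u * m⁻¹)⁻¹ * s * (u * m⁻¹) * x⁻¹ * n⁻¹ by rw [e]; group]
    group)
  have h7 := hm _ hg _ Set.inter_subset_left (mem_PJ_iff.2 ⟨a, RootSys.mem_WJ_of_mul_eq hw' h1 ha
    (inv_mem hb') (by simpa using h6), h2⟩)
  refine RootSys.lo_subset.2 fun r hr => (C.lev_vec_eq_zero_iff I _).1 ?_
  have := (RootSys.lin_lev I (inv_mem hw')).eq_zero_of_inSub (r := v r) fun i hi =>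
    (C.inSub_WJ hv r).2 hr i fun h => hi (by
      simpa [RootSys.zer, RootSys.lev_vec_eq_zero_iff] using (h7 h).2)
  simpa using this

variable [Finite G] (hρ : ρ.Faithful) (hG : ρ.Gp = ⊤)
include hρ hG

theorem card_fixedBy_of_min (hs : s ∈ ρ.PJ J)
    (hm : ∀ g ∈ ρ.PJ J, ∀ I ⊆ J, g⁻¹ * s * g ∈ ρ.PJ I → J ⊆ I) (I : Set B) :
    Nat.card (MulAction.fixedBy (G ⧸ ρ.PJ I) s) =
      ∑ w ∈ univ.filter (· ∈ C.W) with C.lo J w ⊆ I ∧ I ⊆ C.asc w, Nat.card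
        {u // u ∈ ρ.Uw w⁻¹ ∧ (u * ρ.nc w)⁻¹ * (s * (u * ρ.nc w)) ∈ ρ.PJ (C.lo J w)} := by
  have e : ∀ g : G, s • (g : G ⧸ ρ.PJ I) = g ↔ g⁻¹ * (s * g) ∈ ρ.PJ I := fun g => by
    rw [MulAction.Quotient.smul_mk, eq_comm, QuotientGroup.eq, smul_eq_mul]
  rw [filter_filter]
  refine (card_flagP hρ hG I (fun y => s • y = y) fun _ _ _ => inferInstance).trans
    ((sum_subset (fun w => ?_) fun w h h' => ?_).symm.trans (sum_congr rfl fun w h => ?_))
  · simpa using fun h _ h' => ⟨h, h'⟩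
  · simp only [mem_filter, mem_univ, true_and] at h h'
    exact Nat.card_eq_zero.2 (.inl ⟨fun ⟨u, hu, h1⟩ => h' ⟨h.1, lo_subset_of_min hρ hs hm h.1
      (ρ.Uw_le_Up _ hu) ((e _).1 h1), h.2⟩⟩)
  · simp only [mem_filter, mem_univ, true_and] at h
    refine Nat.card_congr (Equiv.subtypeEquivRight fun u => and_congr_right fun hu => ?_)
    refine (e _).trans ⟨fun h1 => ?_, fun h1 => PJ_mono h.2.1 h1⟩
    obtain ⟨u', hu', h2⟩ := exists_Uw_lo h.1 (mul_mem hs (ρ.Bo_le_PJ J (ρ.Up_le_Bo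
      (ρ.Uw_le_Up _ hu))))
    rw [mul_assoc s] at h2
    obtain rfl := (flagP_inj hρ h.1 h.1 h.2.2 h.2.2 hu hu' (by
      simpa [mul_assoc] using mul_mem h1 (inv_mem (PJ_mono h.2.1 h2)))).2
    exact h2

variable {p : ℕ} [Fact p.Prime] [CharP K p] [Finite K]

theorem st_of_min (hs : s ∈ ρ.PJ J)
    (hm : ∀ g ∈ ρ.PJ J, ∀ I ⊆ J, g⁻¹ * s * g ∈ ρ.PJ I → J ⊆ I) (hp : ¬ p ∣ orderOf s) :
    ∃ k : ℕ, ρ.st s = (-1) ^ k * Nat.card ↥(ρ.UJ J ⊓ Subgroup.centralizer {s}) := by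
  set w := lg C.toRootSys J * lg C.toRootSys Set.univ
  have hw : w ∈ C.W := mul_mem (lg_mem_W J) (lg_mem_W _)
  have h1 := sum_alt_filter (univ.filter (· ∈ C.W)) (C.lo J) C.asc fun w => Nat.card
    {u // u ∈ ρ.Uw w⁻¹ ∧ (u * ρ.nc w)⁻¹ * (s * (u * ρ.nc w)) ∈ ρ.PJ (C.lo J w)}
  rw [show (univ.filter (· ∈ C.W)).filter (fun w => C.lo J w = C.asc w) = {w} from ext fun v => by
    simpa using ⟨fun h => (RootSys.lo_eq_asc h.1).1 h.2, fun h => h ▸
      ⟨hw, (RootSys.lo_eq_asc hw).2 rfl⟩⟩, sum_singleton] at h1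
  have e : ρ.Uw w⁻¹ = ρ.UJ J :=
    congrArg ρ.U (Set.ext fun r => and_congr_right fun hr => (RootSys.pos_lg_lg hr).not)
  have h2 := ((RootSys.lo_eq_asc (J := J) hw).2 rfl).le
  have hU : IsPGroup p (ρ.UJ J) := isPGroup_U hρ (C.closed_rad J) (C.isNil_rad J)
  obtain ⟨u, hu, h3⟩ := Coprime.exists_fixed_of_orbit (Subgroup.zpowers s) (ρ.UJ J)
    ((Subgroup.zpowers_le.2 hs).trans (ρ.PJ_le_normalizer_UJ J)) (by
      obtain ⟨k, hk⟩ := hU.exists_card_eq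
      rw [hk, Nat.card_zpowers]
      exact (((Fact.out : p.Prime).coprime_iff_not_dvd.2 hp).symm.pow_right k))
    (.inl inferInstance) (ρ.nc w : G ⧸ ρ.PJ (C.lo J w)) fun a ha => by
      obtain ⟨u, hu, h⟩ := exists_Uw_lo hw (Subgroup.zpowers_le.2 hs ha)
      exact ⟨u, e ▸ hu, QuotientGroup.eq.2 h⟩
  replace h3 : (u * ρ.nc w)⁻¹ * (s * (u * ρ.nc w)) ∈ ρ.PJ (C.lo J w) :=
    QuotientGroup.eq.1 (h3 s (Subgroup.mem_zpowers s)).symm
  refine ⟨(C.lo J w).ncard, ?_⟩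
  simp only [st, fixedPointCharacter, card_fixedBy_of_min hρ hG hs hm]
  refine (by exact_mod_cast h1 : _ = (((-1) ^ (C.lo J w).ncard * _ : ℤ) : ℂ)).trans ?_
  push_cast
  congr 2
  refine Nat.card_congr ((Equiv.mulRight u⁻¹).subtypeEquiv fun x => ?_)
  rw [e, Subgroup.mem_inf, Equiv.coe_mulRight, mul_mem_cancel_right (inv_mem hu),
    Subgroup.mem_centralizer_singleton_iff]
  refine and_congr_right fun hx => ⟨fun h => ?_, fun h => ?_⟩
  · have h4 := mul_mem (PJ_conj_mem_UJ hs (mul_mem hx (inv_mem hu))) hu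
    have := (flagP_inj hρ hw hw h2 h2 (e ▸ hx) (e ▸ h4) (by
      simpa [mul_assoc] using mul_mem h (inv_mem h3))).2
    rw [← mul_inv_eq_iff_eq_mul, eq_mul_inv_iff_mul_eq] at this
    exact this
  · convert h3 using 1
    rw [show s * (x * ρ.nc w) = x * u⁻¹ * s * u * ρ.nc w by rw [h]; group]
    group

/-- The value of the Steinberg character at a `p`-regular element. -/
theorem st_regular (hp : ¬ p ∣ orderOf s) :
    ρ.st s = (p ^ (Nat.card (Subgroup.centralizer ({s} : Set G))).factorization p : ℕ) ∨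
      ρ.st s = -(p ^ (Nat.card (Subgroup.centralizer ({s} : Set G))).factorization p : ℕ) := by
  obtain ⟨⟨J, g⟩, h1, hm⟩ := Set.exists_min_image {x : Set B × G | x.2⁻¹ * s * x.2 ∈ ρ.PJ x.1}
    (fun x => x.1.ncard) (Set.toFinite _) ⟨(Set.univ, 1), by simp [PJ_univ, hG]⟩
  obtain ⟨k, hk⟩ := st_of_min (p := p) hρ hG h1 (fun x _ I hI h => (Set.eq_of_subset_of_ncard_le hI
    (hm (I, g * x) (by simpa [mul_assoc] using h))).ge) (by
      simpa using mt (Loc.orderOf_conj g⁻¹ s ▸ ·) hp)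
  obtain ⟨a, ha⟩ := ((isPGroup_U (p := p) hρ (C.closed_rad J) (C.isNil_rad J)).to_le
    (inf_le_left (b := Subgroup.centralizer {g⁻¹ * s * g}))).exists_card_eq
  have h2 := Subgroup.card_dvd_of_le ((Subgroup.map_le_iff_le_comap (f := (MulAut.conj g).toMonoidHom)
    (K := ρ.UJ J ⊓ Subgroup.centralizer {g⁻¹ * s * g}) (H := Subgroup.centralizer {s})).2
      fun x hx => Subgroup.mem_centralizer_singleton_iff.2 (by
        simpa [mul_assoc] using congrArg (g * · * g⁻¹)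
          (Subgroup.mem_centralizer_singleton_iff.1 hx.2)))
  rw [Subgroup.card_map_of_injective (MulAut.conj g).injective, ha] at h2
  rw [show ρ.st _ = ρ.st s by simpa using Char.irr_isClassFunction (irr_st hρ hG) s g⁻¹, ha] at hk
  have h3 := BlockB.centralChar_isIntegral' (irr_st hρ hG) s
  have h4 : p ^ (Nat.card G).factorization p ∣ (Subgroup.centralizer {s}).index * p ^ a :=
    Char.dvd_of_isIntegral_div (pow_ne_zero _ (Fact.out : p.Prime).ne_zero) (by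
      rw [centralChar, hk, st_one' (p := p) hρ hG] at h3
      rcases neg_one_pow_eq_or ℂ k with h | h
      · simpa [h] using h3
      · simpa [h, neg_div] using h3.neg)
  rw [(Fact.out : p.Prime).pow_dvd_iff_le_factorization (mul_ne_zero
      Subgroup.index_ne_zero_of_finite (pow_ne_zero _ (Fact.out : p.Prime).ne_zero)),
    Nat.factorization_mul Subgroup.index_ne_zero_of_finite
      (pow_ne_zero _ (Fact.out : p.Prime).ne_zero), (Fact.out : p.Prime).factorization_pow,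
    ← BlockB.factorization_index_add s] at h4
  rw [(Fact.out : p.Prime).pow_dvd_iff_le_factorization Nat.card_pos.ne'] at h2
  rw [hk, h2.antisymm (by simpa using h4)]
  rcases neg_one_pow_eq_or ℂ k with h | h <;> simp [h]

end StRep

end CF.Chev
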