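import Cfsg.Agent.Chev.Gl2p
import Cfsg.Agent.Chev.Fix

/-! A Levi subgroup of type `GL₂`. -/

namespace CF.Chev

open Finset Matrix

namespace Gl2

variable {K : Type*} [Field K]

/-- The upper elementary matrices. -/
def tU (t : K) : GL (Fin 2) K := SpecialLinearGroup.toGL
  (SpecialLinearGroup.transvection (Fin.castSucc_lt_succ (i := (0 : Fin 1))).ne t)

/-- The lower elementary matrices. -/
def tL (t : K) : GL (Fin 2) K := SpecialLinearGroup.toGL
  (SpecialLinearGroup.transvection (Fin.castSucc_lt_succ (i := (0 : Fin 1))).ne' t)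

theorem val_tU (t : K) : (tU t).1 = !![1, t; 0, 1] := by
  show transvection 0 1 t = _
  ext i j; fin_cases i <;> fin_cases j <;> simp [transvection]

theorem val_tL (t : K) : (tL t).1 = !![1, 0; t, 1] := by
  show transvection 1 0 t = _
  ext i j; fin_cases i <;> fin_cases j <;> simp [transvection]

theorem val_dgl (x y : Kˣ) : (dgl ![x, y]).1 = !![(x : K), 0; 0, y] := by
  ext i j; fin_cases i <;> fin_cases j <;> simp [dgl]

theorem dgl_mul {I : Type} [Fintype I] [DecidableEq I] (e e' : I → Kˣ) :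
    dgl e * dgl e' = dgl (e * e') := Units.ext (by simp [dgl])

/-- The special linear part. -/
noncomputable def sPart (Λ : GL (Fin 2) K) : Matrix.SpecialLinearGroup (Fin 2) K :=
  ⟨(Λ * (dgl ![1, GeneralLinearGroup.det Λ])⁻¹).1, by
    rw [Units.val_mul, det_mul, det_inv, val_dgl]; simp [Λ.det_ne_zero]⟩

theorem toGL_sPart (Λ : GL (Fin 2) K) :
    SpecialLinearGroup.toGL (sPart Λ) = Λ * (dgl ![1, GeneralLinearGroup.det Λ])⁻¹ := Units.ext rfl

theorem exists_eq_mul (Λ : GL (Fin 2) K) : ∃ (S : Matrix.SpecialLinearGroup (Fin 2) K) (δ : Kˣ),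
    Λ = SpecialLinearGroup.toGL S * dgl ![1, δ] :=
  ⟨sPart Λ, GeneralLinearGroup.det Λ, by rw [toGL_sPart, inv_mul_cancel_right]⟩

theorem Ell.exists_diag {A : GL (Fin 2) K} (h : Ell A.1) (h0 : A.1.trace ≠ 0) {K' : Type*}
    [Field K'] (i : K →+* K') {x : K'} (hx : x ^ 2 - i A.1.trace * x + i A.1.det = 0) :
    ∃ (x y : K'ˣ) (P : GL (Fin 2) K'), GeneralLinearGroup.map i A = P * dgl ![x, y] * P⁻¹ ∧
      (x : K') + y = i A.1.trace ∧ (x : K') * y = i A.1.det ∧ ∀ c, i c ≠ x ∧ i c ≠ y := by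
  have h1 : ∀ z, z ^ 2 - i A.1.trace * z + i A.1.det = 0 → ∀ c, i c ≠ z := by
    rintro _ e c rfl
    exact h c (i.injective (by simpa using e))
  have hy := h1 (i A.1.trace - x) (by linear_combination hx)
  have hx' := h1 x hx
  have h2 : x ≠ i A.1.trace - x := fun e => by
    by_cases h2 : (2 : K) = 0
    · exact h0 (i.injective (by
        have : (2 : K') = 0 := by rw [← map_ofNat i, h2, map_zero]
        rw [map_zero]; linear_combination -e + x * this))
    · refine hx' (A.1.trace / 2) ?_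
      have : (2 : K') ≠ 0 := map_ofNat i 2 ▸ (map_ne_zero i).2 h2
      rw [map_div₀, map_ofNat, div_eq_iff this]; linear_combination -e
  set X := Units.mk0 x (map_zero i ▸ hx' 0).symm
  set Y := Units.mk0 _ (map_zero i ▸ hy 0).symm
  suffices IsConj (dgl ![X, Y]).1 (GeneralLinearGroup.map i A).1 by
    obtain ⟨P, hP⟩ := isConj_iff.1 ((CF.Cls.isConj_units_iff _ _).2 this)
    exact ⟨X, Y, P, hP.symm, by simp [X, Y],
      by simp only [X, Y, Units.val_mk0]; linear_combination -hx, fun c => ⟨hx' c, hy c⟩⟩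
  refine isConj_of_eq (fun c e => ?_) (fun c e => ?_) ?_ ?_
  · rw [val_dgl] at e
    exact h2 ((congrFun₂ e 0 0).trans (congrFun₂ e 1 1).symm)
  · refine h.ne_scalar (A.1 0 0) (Matrix.map_injective i.injective ?_)
    have h3 : i (A.1 0 0) = c := congrFun₂ e 0 0
    refine e.trans ?_
    ext j k; fin_cases j <;> fin_cases k <;> simp [h3]
  · rw [val_dgl]; simp [X, Y, trace_fin_two]
  · rw [val_dgl]
    simp only [det_fin_two, trace_fin_two] at hx ⊢
    simp [X, Y, trace_fin_two] at hx ⊢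
    linear_combination -hx

end Gl2

open Gl2

variable {B ι : Type} [Fintype B] [DecidableEq B] [Fintype ι] [DecidableEq ι]
variable {C : ChevBasis B ι} {K : Type*} [Field K] {G : Type*} [Group G]

namespace StRep

variable {ρ : StRep C K G} {a b : B} {ψ : GL (Fin 2) K →* G}

/-- A homomorphism from `GL₂` onto a Levi subgroup. -/
structure IsG (ρ : StRep C K G) (a b : B) (ψ : GL (Fin 2) K →* G) : Prop where
  isA : ρ.IsA (fun _ : Fin 1 => b) (ψ.comp SpecialLinearGroup.toGL)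
  dg : ∀ δ, ψ (dgl ![1, δ]) = ρ.h (C.simple a) δ

theorem R3.exists_isG (h3 : ρ.R3) (hab : C.car a b = -1) : ∃ ψ, ρ.IsG a b ψ := by
  obtain ⟨φ, hφ⟩ := h3.exists_isA le_rfl (f := fun _ => b) fun i j => by
    rw [C.car_self, Subsingleton.elim i j, RootSys.car_self]
  have h1 := fun δ : Kˣ => hφ.conj (ρ.actsT_h (C.simple a) δ) (e := ![1, δ]) fun i => by
    rw [Subsingleton.elim i 0, cochar_ev, ← C.A_def, C.A_simple_simple, hab]; simp
  have inj := SpecialLinearGroup.toGL_injective (n := Fin 2) (R := K)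
  let ψ : GL (Fin 2) K →* G := MonoidHom.mk' (fun Λ => φ (sPart Λ) *
    ρ.h (C.simple a) (GeneralLinearGroup.det Λ)) fun Λ Λ' => by
      rw [show sPart (Λ * Λ') = sPart Λ * cjS (dgl ![1, GeneralLinearGroup.det Λ]) (sPart Λ') from
        inj (by
          rw [map_mul, toGL_cjS, toGL_sPart, toGL_sPart, toGL_sPart, map_mul,
            show ∀ x y : Kˣ, dgl ![1, x * y] = dgl ![1, x] * dgl ![1, y] from fun x y => by
              rw [dgl_mul]; congr 1; ext i; fin_cases i <;> simp]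
          group), map_mul, ← h1, map_mul, ← h3]
      group
  have h2 : dgl ![1, 1] = (1 : GL (Fin 2) K) := Units.ext (by rw [val_dgl]; simp [one_fin_two])
  have h4 : ψ.comp SpecialLinearGroup.toGL = φ := MonoidHom.ext fun S => by
    have : GeneralLinearGroup.det (SpecialLinearGroup.toGL S) = 1 := Units.ext S.2
    show φ _ * _ = _
    rw [show sPart _ = S from inj (by rw [toGL_sPart, this, h2]; simp), this, ρ.h_one, mul_one]
  refine ⟨ψ, h4 ▸ hφ, fun δ => ?_⟩
  have : GeneralLinearGroup.det (dgl ![1, δ]) = δ := Units.ext (by simp [val_dgl])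
  show φ _ * _ = _
  rw [show sPart _ = 1 from inj (by rw [toGL_sPart, this]; simp), this, map_one, one_mul]

namespace IsG

variable (h : ρ.IsG a b ψ)
include h

theorem tU (t : K) : ψ (tU t) = ρ.x (C.simple b) t := h.isA.pos 0 t

theorem tL (t : K) : ψ (tL t) = ρ.x (C.neg (C.simple b)) t := h.isA.neg 0 t

theorem exists_eq {l : G} (hl : l ∈ ρ.GJ {b}) : ∃ Λ : GL (Fin 2) K, Λ.1.det = 1 ∧ ψ Λ = l := by
  obtain ⟨S, rfl⟩ : l ∈ _ := h.isA.range.ge (by rwa [Set.range_const])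
  exact ⟨_, S.2, rfl⟩

theorem mem_LJ (Λ : GL (Fin 2) K) : ψ Λ ∈ ρ.LJ {b} := by
  obtain ⟨S, δ, rfl⟩ := exists_eq_mul Λ
  rw [map_mul, h.dg]
  exact mul_mem (GJ_le_LJ (Set.range_const (ι := Fin 1) (c := b) ▸ h.isA.range.le ⟨S, rfl⟩))
    (H_mem_LJ (ρ.h_mem_H _ _))

theorem dgl_eq (x y : Kˣ) : ψ (dgl ![x, y]) = ρ.h (C.simple b) x * ρ.h (C.simple a) (x * y) := by
  simp only [PreSt.h, PreSt.n, ← h.tU, ← h.tL, ← map_mul]
  rw [← PreSt.n, ← PreSt.n, ← PreSt.h, ← h.dg, ← map_mul]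
  congr 1
  ext i j
  simp only [Units.val_mul, val_tU, val_tL, val_dgl]
  fin_cases i <;> fin_cases j <;> simp

theorem exists_conj_inv (h3 : ρ.R3) {w : Equiv.Perm ι} (hw : w ∈ C.W)
    (hw' : ∀ i, w (C.simple i) = C.neg (C.simple i)) (Λ : GL (Fin 2) K) :
    ∃ m, ψ Λ⁻¹ = m * ψ Λ * m⁻¹ := by
  obtain ⟨m, hm⟩ := ρ.exists_nW hw
  obtain ⟨e, he⟩ := h.isA.conj_neg hm.acts fun _ => hw' b
  obtain ⟨S, δ, rfl⟩ := exists_eq_mul Λ
  have h1 := h3.conj_h hm.acts (C.simple a) δ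
  rw [hw', ← C.refl_self, h3.h_refl, h3, C.A_self, ← h.dg (δ * _)] at h1
  obtain ⟨P, hP⟩ := isConj_iff.1 ((CF.Cls.isConj_units_iff _ (SpecialLinearGroup.toGL (trS S) *
    dgl ![1, δ * δ ^ (-2 : ℤ)])).2 (by
      convert CF.Cls.isConj_transpose ((SpecialLinearGroup.toGL S * dgl ![1, δ])⁻¹).1
      rw [_root_.mul_inv_rev, ← map_inv, Units.val_mul, Units.val_mul, transpose_mul]
      congr 1
      rw [val_dgl, val_inv_eq, val_dgl]
      ext i j; fin_cases i <;> fin_cases j <;> simp [zpow_ofNat, sq]))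
  refine ⟨(ψ (dgl e * P))⁻¹ * m, ?_⟩
  have h2 : Commute (dgl e) (dgl ![1, δ * δ ^ (-2 : ℤ)]) := by
    rw [Commute, SemiconjBy, dgl_mul, dgl_mul, mul_comm]
  have h4 := he S
  simp only [MonoidHom.comp_apply, toGL_cjS] at h4
  calc _ = ψ ((dgl e * P)⁻¹ * (dgl e * (P * (SpecialLinearGroup.toGL S * dgl ![1, δ])⁻¹ * P⁻¹) *
      (dgl e)⁻¹) * (dgl e * P)) := by congr 1; group
    _ = (ψ (dgl e * P))⁻¹ * (m * ψ (SpecialLinearGroup.toGL S) * m⁻¹ *
      (m * ρ.h (C.simple a) δ * m⁻¹)) * ψ (dgl e * P) := by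
        rw [hP, h4, h1, ← map_mul ψ, mul_assoc _ (dgl e)⁻¹, h2.inv_left.eq, map_mul ψ, map_mul ψ,
          map_inv ψ]
        simp only [mul_assoc]
    _ = _ := by rw [map_mul ψ _ (dgl ![1, δ]), h.dg]; group

theorem map_eq {K' G' : Type*} [Field K'] [Group G'] {ρ' : StRep C K' G'} {ψ' : GL (Fin 2) K' →* G'}
    (h' : ρ'.IsG a b ψ') {i : K →+* K'} {F : G →* G'} (hF : ∀ r t, F (ρ.x r t) = ρ'.x r (i t))
    (Λ : GL (Fin 2) K) : F (ψ Λ) = ψ' (GeneralLinearGroup.map i Λ) := by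
  obtain ⟨S, δ, rfl⟩ := exists_eq_mul Λ
  have h1 := DFunLike.congr_fun (hom_ext_SL (φ := F.comp (ψ.comp SpecialLinearGroup.toGL))
    (φ' := ψ'.comp ((GeneralLinearGroup.map i).comp SpecialLinearGroup.toGL)) (fun j t => ?_)
      fun j t => ?_) S
  · rw [map_mul, map_mul, map_mul, map_mul, h.dg, ← ρ.map_h, show ρ.toPreSt.map F = (ρ'.comap i).toPreSt
      from congrArg toPreSt (ext' (ρ := ρ.map F) (ρ' := ρ'.comap i) hF), comap_h, ← h'.dg]
    refine congrArg₂ _ h1 (congrArg _ (Units.ext ?_))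
    ext j k; fin_cases j <;> fin_cases k <;> simp [val_dgl]
  · rw [Subsingleton.elim j 0]
    refine (congrArg F (h.tU t)).trans ((hF _ _).trans ((h'.tU _).symm.trans (congrArg _ ?_)))
    show _ = GeneralLinearGroup.map i (Gl2.tU t)
    ext j k; fin_cases j <;> fin_cases k <;> simp [val_tU]
  · rw [Subsingleton.elim j 0]
    refine (congrArg F (h.tL t)).trans ((hF _ _).trans ((h'.tL _).symm.trans (congrArg _ ?_)))
    show _ = GeneralLinearGroup.map i (Gl2.tL t)
    ext j k; fin_cases j <;> fin_cases k <;> simp [val_tL]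

end IsG

end StRep

end CF.Chev
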