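import Cfsg.Agent.Chev.BGL
import Cfsg.Agent.Chev.TabX

/-! The Burgoyne–Griess–Lyons theorem for the seven explicit types. -/

namespace CF.Chev

open Cfsg.Lie

variable {K : Type*} [Field K] {p : ℕ} [Fact p.Prime] [CharP K p]

/-- Finite subgroups containing the `x_r(1)` lie between a subfield subgroup and the fixed points
of the corresponding Frobenius map. -/
def Ovr (p : ℕ) (D : ChevalleyDatum) (K : Type*) [Field K] : Prop :=
  ∀ M : Subgroup (GL D.Idx K), Finite M → M ≤ D.group K → ∀ P : K → Prop, P 1 →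
    Subgroup.closure {g : GL D.Idx K | ∃ (s : ℕ) (t : K), P t ∧
      (g : Matrix D.Idx D.Idx K) = D.x K s t} ≤ M →
    ∃ n, 1 ≤ n ∧ (∀ P : K → Prop, Subgroup.closure {g : GL D.Idx K | ∃ (s : ℕ) (t : K), P t ∧
      (g : Matrix D.Idx D.Idx K) = D.x K s t} ≤ M ↔ ∀ t, P t → t ^ p ^ n = t) ∧
      ∀ g ∈ M, ∀ i j, (g : Matrix D.Idx D.Idx K) i j ^ p ^ n = (g : Matrix D.Idx D.Idx K) i j

namespace Tab

variable {D : ChevalleyDatum} {T : Tab} (c : Cert D T)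

/-- A chain of positive roots. -/
noncomputable def chkCh (T : Tab) (A : List ℕ) (θ : ℕ) : List ℕ → ℕ → Bool
  | [], r => r == θ
  | s :: l, r => s < T.n && T.tgt r s < T.n && T.pos r && T.pos s && T.code r s != 0 &&
      (T.M r s 1).natAbs ∈ A && chkCh T A θ l (T.tgt r s)

omit [Fact p.Prime] [CharP K p] in
theorem Cert.chain_of {A : List ℕ} (hA : ∀ k ∈ A, (k : K) ≠ 0) (θ : Fin D.nroots) (l : List ℕ)
    (r : Fin D.nroots) (h : T.chkCh A θ l r = true) :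
    Relation.ReflTransGen (Step c.basis K) r θ := by
  induction' l with s l ih generalizing r
  · rw [show r = θ from Fin.ext (by simpa [chkCh] using h)]
  simp only [chkCh, Bool.and_eq_true, decide_eq_true_eq, bne_iff_ne, ← c.hn] at h
  obtain ⟨⟨⟨⟨⟨⟨h1, h2⟩, h3⟩, h4⟩, h5⟩, h6⟩, h7⟩ := h
  refine .head ⟨c.pos_iff.2 h3, ⟨s, h1⟩, c.pos_iff.2 h4, c.add_iff.2 ⟨h5, rfl⟩, fun e => hA _ h6 ?_⟩
    (ih ⟨_, h2⟩ h7)
  have e' : ((T.M r s 1 : ℤ) : K) = 0 := e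
  obtain h | h := Int.natAbs_eq (T.M r s 1) <;> rw [h] at e' <;> simpa using e'

theorem Cert.ovr [PerfectRing K p] (hG : Chev.Good D c.basis) {θ : ℕ} (hθ : θ < D.nroots)
    (h : (∀ r < T.n, T.le r θ = true) ∧ (∃ i < T.l, T.car i θ = 0) ∧ ∃ i < T.l, ∃ j < T.l,
      T.car i (T.sim j) ≠ T.car j (T.sim i) ∨ i ≠ j ∧ T.car i (T.sim j) = 0)
    (hR : ∀ M : Subgroup (D.group K), Finite M → (∀ r, (c.isLink.gpRep K).x r 1 ∈ M) →
      c.basis.Top ⟨θ, hθ⟩ → (c.isLink.gpRep K).Res M ⟨θ, hθ⟩) : Ovr p D K := by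
  intro M _ hM P h1 h2
  have L := c.isLink
  have h3 : ∀ P : K → Prop, Subgroup.closure {g : GL D.Idx K | ∃ (s : ℕ) (t : K), P t ∧
      (g : Matrix D.Idx D.Idx K) = D.x K s t} ≤ M ↔ ∀ r t, P t → (L.gpRep K).x r t ∈ M.subgroupOf (D.group K) :=
    fun P => by rw [L.closure_eq_Sub P, Subgroup.map_le_iff_le_comap, StRep.Sub_le_iff]; rfl
  have h4 : c.basis.Top ⟨θ, hθ⟩ := fun r => c.le_iff.2 (h.1 r (c.ltn r))
  have : Finite (M.subgroupOf (D.group K)) :=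
    .of_equiv _ (Subgroup.subgroupOfEquivOfLe hM).symm.toEquiv
  have := hG.nontrivial
  obtain ⟨-, ⟨i, hi, h5⟩, j, hj, k, hk, h6⟩ := h
  rw [← c.hl] at hi hj hk
  obtain ⟨n, hn, h7, h8⟩ := (hR _ ‹_› (fun r => (h3 P).1 h2 r 1 h1) h4).fix (p := p) (L.isAdj K)
    hG.conn (fun r => (h3 P).1 h2 r 1 h1) h4 ⟨⟨i, hi⟩, (c.A_simple _ _).trans h5⟩
    ⟨⟨j, hj⟩, ⟨k, hk⟩, by
      simpa only [← RootSys.A_simple_simple, c.A_simple, c.val_simple, Ne, Fin.mk.injEq] using h6⟩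
  exact ⟨n, hn, fun P => (h3 P).trans ⟨fun h t ht => (h7 _ t).1 (h ⟨θ, hθ⟩ t ht),
    fun h r t ht => (h7 r t).2 (h t ht)⟩, fun g hg =>
    (L.fieldAut_eq_iff _ ⟨g, hM hg⟩).1 (h8 _ hg)⟩

omit [Fact p.Prime] [CharP K p] in
theorem Cert.chains {A : List ℕ} (hA : ∀ k ∈ A, (k : K) ≠ 0) {θ : ℕ} (hθ : θ < D.nroots) (r s : ℕ)
    (L : List (List ℕ)) (b : Bool) (h : (r < T.n ∧ s < T.n ∧ T.len r = T.len θ ∧ T.code r s ≠ 0 ∧
      T.tgt r s = θ) ∧ ∀ i < T.l, b = true ∧ T.len (T.sim i) ≠ T.len θ ∨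
        T.chkCh A θ (L.getD i []) (T.sim i) = true) :
    ∃ r s, c.basis.len r = c.basis.len ⟨θ, hθ⟩ ∧ c.basis.vec ⟨θ, hθ⟩ = c.basis.vec s + c.basis.vec r ∧
      ∀ i, (b = true → c.basis.len (c.basis.simple i) = c.basis.len ⟨θ, hθ⟩) →
        Relation.ReflTransGen (Step c.basis K) (c.basis.simple i) ⟨θ, hθ⟩ := by
  obtain ⟨⟨h1, h2, h3, h4⟩, h5⟩ := h
  exact ⟨⟨r, c.hn ▸ h1⟩, ⟨s, c.hn ▸ h2⟩, h3, c.add_iff.2 h4, fun i hi => c.chain_of hA _ _ _
    ((h5 i (c.ltl i)).resolve_left fun e => e.2 (hi e.1))⟩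

theorem Cert.ovr_chain [PerfectRing K p] (hG : Chev.Good D c.basis) {A : List ℕ}
    (hA : ∀ k ∈ A, (k : K) ≠ 0) {θ : ℕ} (hθ : θ < D.nroots) (r s : ℕ) (L : List (List ℕ))
    {b : Bool} (I : b = true → Isog c.basis p)
    (h : ((∀ r < T.n, T.le r θ = true) ∧ (∃ i < T.l, T.car i θ = 0) ∧ ∃ i < T.l, ∃ j < T.l,
      T.car i (T.sim j) ≠ T.car j (T.sim i) ∨ i ≠ j ∧ T.car i (T.sim j) = 0) ∧
      (r < T.n ∧ s < T.n ∧ T.len r = T.len θ ∧ T.code r s ≠ 0 ∧ T.tgt r s = θ) ∧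
      ∀ i < T.l, b = true ∧ T.len (T.sim i) ≠ T.len θ ∨
        T.chkCh A θ (L.getD i []) (T.sim i) = true) : Ovr p D K := by
  obtain ⟨r, s, h1, h2, h3⟩ := c.chains hA hθ r s L b h.2
  refine c.ovr hG hθ h.1 fun M _ hM h4 => ?_
  cases b
  · exact StRep.res_of_chain (p := p) hM h4 h1 h2 fun i => h3 i nofun
  · exact StRep.res_of_isog hM h4 (c.isLink.isAdj K) (I rfl) h1 h2 fun i hi => h3 i fun _ => hi

end Tab

theorem ovr [PerfectRing K p] {D : ChevalleyDatum}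
    (hD : D ∈ [chevG2, chevB2, chevD4, chevF4, chevE6, chevE7, chevE8]) : Ovr p D K := by
  have h1 : ∀ k ∈ [1], ((k : ℕ) : K) ≠ 0 := by simp
  have h2 : ∀ q : ℕ, q.Prime → p ≠ q → ∀ k ∈ [1, q], ((k : ℕ) : K) ≠ 0 := fun q hq h => by
    simpa [CharP.cast_eq_zero_iff K p q, Nat.prime_dvd_prime_iff_eq Fact.out hq] using h
  simp only [List.mem_cons, List.not_mem_nil, or_false] at hD
  obtain rfl | rfl | rfl | rfl | rfl | rfl | rfl := hD
  · obtain rfl | hp := eq_or_ne p 3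
    · exact certG2.ovr_chain goodG2 h1 (θ := 11) (by decide +kernel) 6 10 [[], [10]]
        (b := true) (fun _ => isogG2) (by decide +kernel)
    · exact certG2.ovr_chain goodG2 (h2 3 Nat.prime_three hp) (θ := 11) (by decide +kernel) 6 10
        [[6, 9], [10]] (b := false) nofun (by decide +kernel)
  · have h : ∀ k ≤ 7, k < chevB2.nroots := by decide +kernel
    have h' : tabB2.A 5 4 = -2 ∧ (tabB2.code 5 4 ≠ 0 ∧ tabB2.tgt 5 4 = 6) ∧ (tabB2.code 5 6 ≠ 0 ∧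
      tabB2.tgt 5 6 = 7) ∧ tabB2.pos 4 = true ∧ tabB2.pos 5 = true := by decide +kernel
    refine certB2.ovr goodB2 (θ := 7) (h 7 le_rfl) (by decide +kernel) fun M _ hM h3 =>
      StRep.res_b2 (p := p) hM h3 (a := ⟨4, h 4 (by simp)⟩) (b := ⟨5, h 5 (by simp)⟩)
        (c := ⟨6, h 6 (by simp)⟩) ⟨(certB2.A_eq _ _).trans h'.1, certB2.add_iff.2 h'.2.1,
          certB2.add_iff.2 h'.2.2.1⟩ (certB2.pos_iff.2 h'.2.2.2.1) (certB2.pos_iff.2 h'.2.2.2.2)
        (certB2.isLink.faithful_gpRep K) (fun i => ?_) fun z hz => Fin.ext ?_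
    · simp only [Fin.ext_iff, certB2.val_simple]
      exact (by decide +kernel : ∀ i < tabB2.l, tabB2.sim i = 4 ∨ tabB2.sim i = 5) i (certB2.ltl i)
    · exact (by decide +kernel : ∀ z < tabB2.n, tabB2.pos z = true → ¬ tabB2.le z 6 = true → z = 7)
        z (certB2.ltn z) (certB2.pos_iff.1 hz.1) fun e => hz.2 (certB2.le_iff.2 e)
  · exact certD4.ovr_chain goodD4 h1 (θ := 23) (by decide +kernel) 14 22
      [[14, 17], [22], [14, 20], [14, 21]] (b := false) nofun (by decide +kernel)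
  · obtain rfl | hp := eq_or_ne p 2
    · exact certF4.ovr_chain goodF4 h1 (θ := 47) (by decide +kernel) 24 46 [[], [], [24, 45], [46]]
        (b := true) (fun _ => isogF4) (by decide +kernel)
    · exact certF4.ovr_chain goodF4 (h2 2 Nat.prime_two hp) (θ := 47) (by decide +kernel) 24 46
        [[29, 40], [26, 44], [24, 45], [46]] (b := false) nofun (by decide +kernel)
  · exact certE6.ovr_chain goodE6 h1 (θ := 71) (by decide +kernel) 46 70
      [[50, 55], [70], [47, 66], [46, 69], [47, 68], [48, 67]] (b := false) nofun (by decide +kernel)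
  · exact certE7.ovr_chain goodE7 h1 (θ := 125) (by decide +kernel) 93 124 [[124], [95, 118],
      [93, 123], [94, 122], [95, 121], [96, 120], [97, 119]] (b := false) nofun (by decide +kernel)
  · exact certE8.ovr_chain goodE8 h1 (θ := 239) (by decide +kernel) 120 238 [[140, 225], [134, 232],
      [134, 233], [129, 234], [125, 235], [122, 236], [120, 237], [238]] (b := false) nofun
      (by decide +kernel)

omit [Fact p.Prime] [CharP K p] in
theorem dvd_of_pow_eq {a n : ℕ} (hp : 1 < p) {t : K} (ht : orderOf t = p ^ a - 1) (ha : 1 ≤ a)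
    (h : t ^ p ^ a = t → t ^ p ^ n = t) : a ∣ n := by
  have h0 : 0 < p ^ a - 1 := Nat.sub_pos_of_lt (Nat.one_lt_pow (by omega) hp)
  have key : ∀ m, t ^ p ^ m = t ↔ p ^ a - 1 ∣ p ^ m - 1 := fun m => by
    have h1 : t ≠ 0 := fun e => by simp [e] at ht; omega
    rw [← ht, orderOf_dvd_iff_pow_eq_one, ← mul_left_inj' h1 (b := 1), ← pow_succ, one_mul,
      Nat.sub_add_cancel (Nat.one_le_pow _ _ (by omega))]
  have := Nat.dvd_gcd dvd_rfl ((key n).1 (h ((key a).2 dvd_rfl)))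
  rw [Nat.pow_sub_one_gcd_pow_sub_one] at this
  have h2 := Nat.le_of_dvd (Nat.sub_pos_of_lt (Nat.one_lt_pow (Nat.gcd_pos_of_pos_left n ha).ne' hp))
    this
  have h3 := (Nat.pow_le_pow_iff_right hp).1 (show p ^ a ≤ p ^ a.gcd n by
    have := Nat.one_le_pow (a.gcd n) p (by omega); omega)
  exact (Nat.le_antisymm (Nat.gcd_le_left n ha) h3) ▸ Nat.gcd_dvd_right a n

end CF.Chev
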