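import Cfsg.Agent.Chev.Thom

/-! Products of two conjugates of an elliptic element of `GL₂`. -/

namespace CF.Chev.Gl2

open Matrix Polynomial

variable {K : Type*} [Field K]

local notation "M2" => Matrix (Fin 2) (Fin 2) K

theorem isConj_comp {M : M2} (h : ∀ c, M ≠ scalar _ c) :
    IsConj !![0, -M.det; 1, M.trace] M := by
  have key : ∀ x y : K, x * (M 1 0 * x + M 1 1 * y) - (M 0 0 * x + M 0 1 * y) * y ≠ 0 →
      IsConj !![0, -M.det; 1, M.trace] M := fun x y h => by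
    refine ⟨GeneralLinearGroup.mkOfDetNeZero !![x, M 0 0 * x + M 0 1 * y; y, M 1 0 * x + M 1 1 * y]
      (by rwa [det_fin_two_of]), ?_⟩
    ext i j
    fin_cases i <;> fin_cases j <;>
      simp [GeneralLinearGroup.mkOfDetNeZero, mul_apply, det_fin_two, trace_fin_two] <;> ring
  by_contra h0
  have h1 : M 1 0 = 0 := by simpa using not_not.1 (mt (key 1 0) h0)
  have h2 : M 0 1 = 0 := by simpa using not_not.1 (mt (key 0 1) h0)
  have h3 := not_not.1 (mt (key 1 1) h0)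
  refine h (M 0 0) ?_
  ext i j
  fin_cases i <;> fin_cases j <;> simp [h1, h2]
  linear_combination h3 - h1 + h2

theorem isConj_of_eq {M N : M2} (h : ∀ c, M ≠ scalar _ c) (h' : ∀ c, N ≠ scalar _ c)
    (h1 : M.trace = N.trace) (h2 : M.det = N.det) : IsConj M N := by
  obtain ⟨P, hP⟩ := isConj_comp h
  obtain ⟨Q, hQ⟩ := isConj_comp h'
  rw [h1, h2] at hP
  exact ⟨Q * P⁻¹, hQ.mul_left hP.units_inv_symm_left⟩

/-- The characteristic polynomial has no root. -/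
def Ell (M : M2) : Prop := ∀ c : K, c ^ 2 - M.trace * c + M.det ≠ 0

theorem Ell.ne_scalar {M : M2} (h : Ell M) (c : K) : M ≠ scalar _ c := by
  rintro rfl
  exact h c (by simp [trace_fin_two, det_fin_two]; ring)

theorem Ell.isConj {M N : M2} (h : Ell M) (h1 : M.trace = N.trace) (h2 : M.det = N.det) :
    IsConj M N :=
  isConj_of_eq h.ne_scalar (Ell.ne_scalar fun c => h1 ▸ h2 ▸ h c) h1 h2

theorem val_inv_eq (A : GL (Fin 2) K) : (A⁻¹).1 = A.1.det⁻¹ • !![A.1 1 1, -A.1 0 1; -A.1 1 0, A.1 0 0] := by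
  rw [coe_units_inv, inv_def, adjugate_fin_two, Ring.inverse_eq_inv']

theorem trace_inv (A : GL (Fin 2) K) : (A⁻¹).1.trace = A.1.trace / A.1.det := by
  rw [val_inv_eq]; simp [trace_fin_two]; ring

theorem det_inv (A : GL (Fin 2) K) : (A⁻¹).1.det = A.1.det⁻¹ := by
  rw [coe_units_inv, det_nonsing_inv, Ring.inverse_eq_inv']

theorem Ell.inv {A : GL (Fin 2) K} (h : Ell A.1) : Ell (A⁻¹).1 := fun c e => by
  have := A.det_ne_zero
  rw [trace_inv, det_inv] at e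
  exact h (c * A.1.det) (by field_simp at e; linear_combination A.1.det * e)

/-- `Λ` is a product of a conjugate of `A` and a conjugate of `A'`. -/
def Pr (A A' Λ : GL (Fin 2) K) : Prop := ∃ P Q, Λ = P * A * P⁻¹ * (Q * A' * Q⁻¹)

theorem pr_of_conic {A A' Λ : GL (Fin 2) K} (h : Ell A.1) (h' : Ell A'.1)
    (hΛ : ∀ c, Λ.1 ≠ scalar _ c) (hd : Λ.1.det * (A'⁻¹).1.det = A.1.det) {u w : K}
    (e : u ^ 2 - Λ.1.trace * u * w + Λ.1.det * w ^ 2 - (A'⁻¹).1.trace * u + A.1.trace * w +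
      (A'⁻¹).1.det = 0) : Pr A A' Λ := by
  obtain ⟨P, hP⟩ := isConj_comp hΛ
  have h1 : !![(A'⁻¹).1.trace - u, A.1.trace + Λ.1.det * w - Λ.1.trace * u; w, u].det =
      (A'⁻¹).1.det := by rw [det_fin_two_of]; linear_combination -e
  set Y := GeneralLinearGroup.mkOfDetNeZero _ (h1 ▸ (A'⁻¹).det_ne_zero)
  have h2 : (P⁻¹ * Λ * P).1 = !![0, -Λ.1.det; 1, Λ.1.trace] := by
    rw [Units.val_mul, Units.val_mul, mul_assoc, ← hP.eq, Units.inv_mul_cancel_left]
  obtain ⟨Q, hQ⟩ := isConj_iff.1 ((CF.Cls.isConj_units_iff _ Y).2 (h'.inv.isConj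
    (by simp [Y, GeneralLinearGroup.mkOfDetNeZero, trace_fin_two]) h1.symm))
  obtain ⟨R, hR⟩ := isConj_iff.1 ((CF.Cls.isConj_units_iff _ (P⁻¹ * Λ * P * Y)).2 (h.isConj
    (by rw [Units.val_mul, h2]; simp [Y, GeneralLinearGroup.mkOfDetNeZero, trace_fin_two])
    (by rw [Units.val_mul, det_mul, h2, ← hd, ← h1]; simp [Y])))
  exact ⟨P * R, P * Q, by
    calc Λ = P * (P⁻¹ * Λ * P * Y) * Y⁻¹ * P⁻¹ := by group
      _ = _ := by rw [← hR, ← hQ]; group⟩

theorem exists_ell [Finite K] (d : Kˣ) : ∃ A : GL (Fin 2) K, Ell A.1 ∧ A.1.det = d := by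
  obtain ⟨τ, hτ⟩ : ∃ τ : K, ∀ c : Kˣ, (c : K) + d / c ≠ τ := by
    by_contra! h
    have := Nat.card_le_card_of_surjective _ h
    have := Nat.card_pos (α := K)
    rw [Nat.card_units] at *
    omega
  have h1 : (!![0, -d; 1, τ] : M2).det = d := by simp
  refine ⟨GeneralLinearGroup.mkOfDetNeZero _ (h1.trans_ne d.ne_zero), fun c e => ?_, h1⟩
  change c ^ 2 - (!![0, -d; 1, τ] : M2).trace * c + (!![0, -d; 1, τ] : M2).det = 0 at e
  rw [h1] at e
  have h2 : c ≠ 0 := by rintro rfl; simp at e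
  refine hτ (Units.mk0 c h2) ?_
  simp [trace_fin_two] at e ⊢
  field_simp
  linear_combination e

theorem pr_odd [Finite K] (h2 : (2 : K) ≠ 0) {A Λ : GL (Fin 2) K} (h : Ell A.1)
    (hd : A.1.det = -1) (hΛ : Λ.1.det = 1) : Pr A A Λ ∨ Pr A A⁻¹ Λ := by
  have hτ : A.1.trace ≠ 0 := fun e => h 1 (by simp [e, hd])
  have h3 : (A⁻¹).1.trace = -A.1.trace := by rw [trace_inv, hd, div_neg, div_one]
  have h4 : (A⁻¹).1.det = -1 := by rw [det_inv, hd]; simp
  by_cases hs : ∃ c, Λ.1 = scalar _ c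
  · obtain ⟨c, hc⟩ := hs
    obtain rfl | rfl := mul_self_eq_one_iff.1 (show c * c = 1 by simpa [hc, sq] using hΛ)
    · exact .inr ⟨1, 1, Units.ext (by simp [hc])⟩
    · obtain ⟨Q, hQ⟩ := isConj_iff.1 ((CF.Cls.isConj_units_iff _ (-A⁻¹)).2 (h.isConj
        (by rw [Units.val_neg, trace_neg, h3, neg_neg]) (by rw [Units.val_neg, det_neg, h4, hd]; simp)))
      exact .inl ⟨1, Q, by rw [hQ]; exact Units.ext (by rw [hc, map_neg, map_one]; simp)⟩
  push Not at hs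
  by_cases h5 : Λ.1.trace ^ 2 = 2 ^ 2
  · obtain e | e := sq_eq_sq_iff_eq_or_eq_neg.1 h5
    · exact .inl (pr_of_conic h h hs (by rw [hΛ, h4, hd, one_mul]) (u := 1 / (2 * A.1.trace))
        (w := 1 / (2 * A.1.trace)) (by rw [e, hΛ, h3, h4]; field_simp; ring))
    · exact .inr (pr_of_conic h h.inv hs (by rw [hΛ, one_mul, inv_inv])
        (u := -(1 / (2 * A.1.trace))) (w := 1 / (2 * A.1.trace))
        (by rw [e, hΛ, inv_inv, hd]; field_simp; ring))
  have := Fintype.ofFinite K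
  obtain ⟨u, w, e⟩ := FiniteField.exists_root_sum_quadratic
    (f := C 1 * X ^ 2 + C (-A.1.trace) * X + C (-1)) (g := C (1 - Λ.1.trace ^ 2 / 2 ^ 2) * X ^ 2 +
      C (A.1.trace - A.1.trace * Λ.1.trace / 2) * X + C 0) (degree_quadratic one_ne_zero)
    (degree_quadratic fun e => h5 (by field_simp at e; linear_combination -e))
    (FiniteField.odd_card_of_char_ne_two fun e => h2 (by
      exact_mod_cast (ringChar.spec K 2).2 (e ▸ dvd_rfl)))
  refine .inr (pr_of_conic h h.inv hs (by rw [hΛ, one_mul, inv_inv]) (u := u + Λ.1.trace * w / 2)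
    (w := w) ?_)
  simp only [eval_add, eval_mul, eval_C, eval_pow, eval_X] at e
  rw [hΛ, inv_inv, hd, ← e]
  field_simp
  ring

theorem pr_even [Finite K] (h2 : (2 : K) = 0) {A Λ : GL (Fin 2) K} (h : Ell A.1)
    (hΛ : Λ.1.det = 1 ∨ Λ.1.det = A.1.det ^ 2) (ht : Λ.1.trace ≠ 0) : Pr A A Λ ∨ Pr A A⁻¹ Λ := by
  have hs : ∀ c, Λ.1 ≠ scalar _ c := fun c e => ht (by
    simp only [e, trace_fin_two, scalar_apply, diagonal_apply_eq]; linear_combination c * h2)
  have key : ∀ A' : GL (Fin 2) K, Ell A'.1 → Λ.1.det * (A'⁻¹).1.det = A.1.det → Pr A A' Λ := by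
    intro A' h' hd
    obtain ⟨u, hu⟩ := FiniteField.isSquare_of_char_two (ringChar.eq_iff.2
      (CharTwo.of_one_ne_zero_of_two_eq_zero one_ne_zero h2))
      (-(Λ.1.det * (-(A'⁻¹).1.trace / Λ.1.trace) ^ 2 + A.1.trace * (-(A'⁻¹).1.trace / Λ.1.trace) +
        (A'⁻¹).1.det))
    refine pr_of_conic h h' hs hd (u := u) (w := -(A'⁻¹).1.trace / Λ.1.trace) ?_
    have := mul_div_cancel₀ (-(A'⁻¹).1.trace) ht
    linear_combination -hu - u * this
  have := A.det_ne_zero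
  exact hΛ.symm.imp (fun e => key A h (by rw [e, det_inv]; field_simp))
    fun e => key _ h.inv (by rw [e, one_mul, inv_inv])

end CF.Chev.Gl2
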