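import Cfsg.Agent.Chev.Rk2
import Cfsg.Agent.Chev.Gen2

/-! Squares of semisimple classes in `B₂(q)` and `G₂(q)`. -/

namespace CF.Chev

open Finset Matrix Gl2

variable {B ι : Type} [Fintype B] [DecidableEq B] [Fintype ι] [DecidableEq ι]
variable {C : ChevBasis B ι} {K : Type*} [Field K] {G : Type*} [Group G]

/-- The root data of type `B₂` or `G₂`, with `a` long and `γ = -α-β`. -/
structure Rk2 (C : ChevBasis B ι) (a b : B) (γ : ι) : Prop where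
  all : ∀ i, i ≠ b ↔ i = a
  car : C.car a b = -1
  add : C.vec (C.neg (C.simple b)) = C.vec γ + C.vec (C.simple a)
  c0 : ∀ r, ¬ C.Pos r → C.vec r a = 0 → r = C.neg (C.simple b)
  c1 : ∀ r, C.vec r a ≤ -1 → r ≠ C.neg (C.simple a) → r ≠ γ → C.vec r b ≤ -2
  c2 : ∀ r, C.vec r b - C.A (C.simple b) r ≤ -2 → r ≠ C.neg (C.simple a) → r ≠ γ → C.vec r a ≤ -2
  c3 : ∀ r, C.vec r a ≤ -2 → C.vec r b ≤ -2
  no : ∀ u, C.vec u ≠ C.vec γ + C.vec (C.neg (C.simple a))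
  n3 : (∃ v z, C.vec v = C.vec γ - C.vec (C.simple b) ∧ C.vec z = C.vec v - C.vec (C.simple b)) ∨
    -2 < C.vec γ b - C.A (C.simple b) γ
  wt : ∀ r, C.vec r a ≠ 0 → ∃ e ∈ [(1 : ℤ), -1], (e * (C.A (C.simple b) r + C.A (C.simple a) r),
    e * C.A (C.simple a) r) ∈ [((-1 : ℤ), (2 : ℤ)), (0, 1), (1, 0), (2, -1), (1, 1), (0, 2), (2, 0)]
  w0 : ∃ w ∈ C.W, ∀ i, w (C.simple i) = C.neg (C.simple i)

theorem RootSys.ideal_le (R : RootSys B ι) (φ : (B → ℤ) →ₗ[ℤ] ℤ) {m : ℤ} (hm : m ≤ 0) :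
    R.Ideal {r | φ (R.vec r) ≤ 0} {r | φ (R.vec r) ≤ m} := fun r hr s hs u i j hi hj e => by
  simp only [Set.mem_ofPred_eq, e, map_add, map_smul, smul_eq_mul] at hr hs ⊢
  nlinarith [mul_nonneg (Int.natCast_nonneg i) (neg_nonneg.2 hr)]

namespace StRep

variable {ρ : StRep C K G} {a b : B} {γ : ι} {ψ : GL (Fin 2) K →* G} {g l u v z : G}

theorem conj_mem_le (φ : (B → ℤ) →ₗ[ℤ] ℤ) {m : ℤ} (hm : m < 0)
    (hg : g ∈ ρ.U {r | φ (C.vec r) ≤ 0}) (hz : z ∈ ρ.U {r | φ (C.vec r) ≤ m}) :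
    g * z * g⁻¹ ∈ ρ.U {r | φ (C.vec r) ≤ m} :=
  ρ.conj_mem_U (C.ideal_le φ hm.le) (fun r hr h => by
    simp only [Set.mem_ofPred_eq, C.vec_neg, map_neg] at hr h; omega) hg hz

theorem exists_split (φ : (B → ℤ) →ₗ[ℤ] ℤ) {m : ℤ} (hm : m < 0) {r s : ι} (h : r ≠ s)
    (hg : g ∈ ρ.U {r | φ (C.vec r) ≤ m}) : ∃ t t', ∃ z ∈ ρ.U {u | φ (C.vec u) ≤ m ∧ u ≠ r ∧ u ≠ s},
      g = ρ.x r t * ρ.x s t' * z ∧ (m < φ (C.vec s) → t' = 0) := by
  obtain ⟨L, h1, h2⟩ := PreSt.exists_list {u | φ (C.vec u) ≤ m ∧ u ≠ r ∧ u ≠ s}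
  obtain ⟨t, h3, rfl⟩ := ρ.exists_prodL ((C.ideal_le φ hm.le).mono fun _ h => h.trans hm.le)
    ⟨-φ, fun r hr => neg_pos.2 (hr.trans_lt hm)⟩
    (L := ([r, s].filter fun u => φ (C.vec u) ≤ m) ++ L)
    (fun u => by simp only [List.mem_append, h1, List.mem_filter]; simp; tauto)
    (List.Nodup.append (List.Nodup.filter _ (by simpa)) h2 fun u h3 h4 => by
      have := ((h1 u).1 h4).2
      simp only [List.mem_filter, List.mem_cons, List.not_mem_nil] at h3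
      tauto) hg
  refine ⟨t r, t s, _, ρ.prodL_mem_U (fun u => (h1 u).1) t, ?_, fun h => h3 _ h.not_ge⟩
  have := h3 r
  have := h3 s
  rw [ρ.prodL_append]
  congr 1
  by_cases h4 : φ (C.vec r) ≤ m <;> by_cases h5 : φ (C.vec s) ≤ m <;>
    simp_all [List.filter_cons, PreSt.prodL_cons, PreSt.prodL_nil, ρ.x_zero]

theorem cm_comm {r s : ι} (h : C.vec (C.neg (C.simple b)) = C.vec s + C.vec r)
    (h1 : C.vec r b = 0) (t p : K) :
    ρ.Cm b (ρ.x r t * ρ.x s p * (ρ.x r t)⁻¹) (C.N r s * t * p) := by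
  have h2 : C.vec s b = -1 := by simpa [C.vec_neg, C.vec_simple, h1] using (congrFun h b).symm
  have h3 := C.ne_of_add h
  have h4 := C.ne_neg_of_add h
  have h5 : ∀ u, C.vec u b < 0 → ¬ C.Pos u := fun u hu h => (h b).not_gt hu
  have := ρ.comm' h3 h4 (-t) p
  rw [ρ.x_neg] at this
  rw [mul_assoc, this, mul_assoc, mul_inv_cancel_left]
  refine Cm.Vi_mul ?_ (ρ.x_mem_U (And.intro (h5 s (by omega)) (C.add_ne_left h).symm) p)
  obtain ⟨L, hL⟩ : ∃ L, C.commTerms r s = (C.neg (C.simple b), C.N r s, 1, 1) :: L := by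
    rw [LieBasis.commTerms, C.rt_eq_some.2 (by simpa [add_comm] using h)]
    exact ⟨_, rfl⟩
  have h6 := C.commTerms_nodup r s
  rw [LieBasis.commWord, hL, List.map_cons, ρ.word_cons, neg_neg, pow_one, pow_one]
  refine cm_x.mul_Vi (ρ.word_mem_U fun q hq => ?_)
  obtain ⟨q, hq', rfl⟩ := List.mem_map.1 hq
  obtain ⟨k1, k2, k3⟩ := C.commTerms_spec (r := r) (s := s) (hL ▸ List.mem_cons_of_mem _ hq')
  refine ⟨h5 _ (by simp [k3, h1, h2]; omega), fun e => ?_⟩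
  rw [hL, List.map_cons, List.nodup_cons] at h6
  rw [show q.1 = _ from e, h] at k3
  have := C.indep' h3 h4 (a := 1) (b := 1) (Eq.trans (by module) k3)
  exact h6.1 (List.mem_map.2 ⟨q, hq', Prod.ext (by simp; omega) (by simp; omega)⟩)

end StRep

namespace Rk2

open StRep

variable {ρ : StRep C K G} {a b : B} {γ : ι} {ψ : GL (Fin 2) K →* G} {g l u v z : G}
  (h : Rk2 C a b γ)
include h

theorem ne : a ≠ b := (h.all a).2 rfl

theorem inSub {r : ι} : C.InSub {b} r ↔ C.vec r a = 0 :=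
  ⟨fun hr => hr a h.ne, fun hr i hi => (h.all i).1 hi ▸ hr⟩

theorem VJ_eq : ρ.VJ {b} = ρ.U {r | LinearMap.proj (R := ℤ) a (C.vec r) ≤ -1} := by
  refine congrArg ρ.U (Set.ext fun r => ?_)
  simp only [h.inSub, Set.mem_ofPred_eq, LinearMap.coe_proj, Function.eval]
  exact ⟨fun h => by have := (C.not_pos_iff r).1 h.1 a; simp at this; omega,
    fun h => ⟨fun h' => by have := h' a; simp at this; omega, by omega⟩⟩

theorem vec_a : C.vec γ a = -1 := by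
  have := congrFun h.add a
  simp [C.vec_neg, C.vec_simple, h.ne] at this; omega

theorem vec_b : C.vec γ b = -1 := by
  simpa [C.vec_neg, C.vec_simple, h.ne.symm] using (congrFun h.add b).symm

theorem ne_neg : C.neg (C.simple a) ≠ γ := (C.ne_neg_of_add h.add).symm

omit h in
theorem le_Vi {i : B} : ρ.U {r | LinearMap.proj (R := ℤ) b (C.vec r) ≤ -2} ≤ ρ.Vi i :=
  ρ.U_mono fun r (hr : C.vec r b ≤ -2) => ⟨fun h => by have := h b; simp at this; omega, by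
    rintro rfl
    simp only [C.vec_neg, C.vec_simple, Pi.neg_apply, Pi.single_apply] at hr
    omega⟩

theorem move (h3 : ρ.R3) (hρ : ρ.Faithful) {r p t : K} {s : Kˣ}
    (hz : z ∈ ρ.U {r | LinearMap.proj (R := ℤ) b (C.vec r) ≤ -2}) (hl : l ∈ ρ.LJ {b})
    (hu : u ∈ ρ.UJ {b}) (hs : (s : K) = 1 + r * t) : ∃ v' ∈ ρ.VJ {b}, ∃ u' ∈ ρ.UJ {b},
      ρ.x (C.simple a) t * (ρ.x (C.neg (C.simple a)) r * ρ.x γ p * z * l * u) *
        (ρ.x (C.simple a) t)⁻¹ = v' * (ρ.x (C.neg (C.simple b)) (C.N (C.simple a) γ * t * p) *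
          ρ.h (C.simple a) s * l) * u' := by
  have h1 : ρ.x γ p ∈ ρ.Vi a := ρ.x_mem_U (And.intro (fun h' => by
    have := h' a; rw [h.vec_a] at this; simp at this) h.ne_neg.symm) p
  have h0 : ρ.Cm a (ρ.x (C.neg (C.simple a)) r * ρ.x γ p * z) r :=
    (cm_x.mul_Vi h1).mul_Vi (le_Vi hz)
  obtain ⟨v', hv', -, v₂, hv₂, e, u', hu', e'⟩ := h3.move (J := {b}) h.ne h0 hl hu hs
  obtain ⟨q, rfl⟩ := ρ.mem_X.1 ((ρ.U_singleton _).le (ρ.U_mono
    (fun r (hr : _ ∧ _) => h.c0 r hr.1 (h.inSub.1 hr.2)) hv₂))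
  have h2 : C.vec (C.simple a) b = 0 := by simp [C.vec_simple, h.ne.symm]
  have h4 := conj_mem_le (LinearMap.proj b) (by simp)
    (ρ.x_mem_U (r := C.simple a) h2.le (t / s)) hz
  have h6 := (((cm_comm (ρ := ρ) h.add h2 (t / s) p).mul_Vi (le_Vi h4)).H_conj (ρ.h_mem_H _ s)
    (ρ.actsT_h (C.simple a) s)).Vi_mul (ρ.x_mem_U (And.intro (C.not_pos_neg_simple a) fun e =>
      h.ne (C.simple_injective (C.neg_injective e))) (r / s))
  have h5 := (cm_x.Vi_mul (VJ_le_Vi (J := {b}) rfl hv')).unique hρ (by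
    rw [e]; convert h6 using 4; group)
  refine ⟨v', hv', u', hu', e'.trans ?_⟩
  rw [h5, cochar_ev, ← C.A_def, C.A_neg_right, C.A_simple_simple, h.car, neg_neg, zpow_one]
  congr 4
  field_simp


theorem even (h3 : ρ.R3) (hρ : ρ.Faithful) (hψ : ρ.IsG a b ψ) (h2 : (2 : K) = 0) {Q : G → Prop}
    (hQ : ∀ y g, Q (y * g * y⁻¹) → Q g) {d : Kˣ} (hd : d ≠ 1)
    (hb : ∀ v ∈ ρ.VJ {b}, ∀ u ∈ ρ.UJ {b}, ∀ Λ : GL (Fin 2) K, Λ = 1 ∨ Λ.1.trace ≠ 0 ∧
      (Λ.1.det = 1 ∨ Λ.1.det = d) → Q (v * ψ Λ * u)) (hv : v ∈ ρ.VJ {b}) {r : K} (hr : r ≠ 0)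
    (hc : ρ.Cm a v r) {Λ : GL (Fin 2) K} (hΛ : Λ.1.det = 1) (hu : u ∈ ρ.UJ {b}) :
    Q (v * ψ Λ * u) := by
  by_cases ht : Λ.1.trace = 0
  swap
  · exact hb v hv u hu Λ (.inr ⟨ht, .inl hΛ⟩)
  have : CharP K 2 := CharTwo.of_one_ne_zero_of_two_eq_zero one_ne_zero h2
  by_cases hs : ∃ c, Λ.1 = scalar _ c
  · obtain ⟨c, hc⟩ := hs
    obtain rfl : c = 1 := by
      simpa [CharTwo.neg_eq] using mul_self_eq_one_iff.1
        (show c * c = 1 by simpa [hc, sq] using hΛ)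
    exact hb v hv u hu Λ (.inl (Units.ext (by simp [hc])))
  have odd : ∀ k : ℤ, k.natAbs = 1 ∨ k.natAbs = 3 → (k : K) = 1 := fun k hk => by
    obtain ⟨m, rfl⟩ : Odd k := by rw [Int.odd_iff]; omega
    simp [h2]
  have n1 := odd _ (.inl (C.N_abs_one _ _ _ h.add fun u e => h.no u (by
    rw [e, C.vec_neg, sub_eq_add_neg])))
  have mv : ∀ r p t z (s : Kˣ) Λ u, z ∈ ρ.U {r | LinearMap.proj (R := ℤ) b (C.vec r) ≤ -2} →
      u ∈ ρ.UJ {b} → (s : K) = 1 + r * t → tL (t * p) * dgl ![1, s] * Λ = 1 ∨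
      (tL (t * p) * dgl ![1, s] * Λ).1.trace ≠ 0 ∧ Λ.1.det = 1 ∧ (s = 1 ∨ s = d) →
      Q (ρ.x (C.neg (C.simple a)) r * ρ.x γ p * z * ψ Λ * u) := by
    intro r p t z s Λ u hz hu hs H
    obtain ⟨v', hv', u', hu', e⟩ := h.move (p := p) h3 hρ hz (hψ.mem_LJ Λ) hu hs
    rw [n1, one_mul, ← hψ.tL, ← hψ.dg, ← map_mul, ← map_mul] at e
    refine hQ (ρ.x (C.simple a) t) _ ?_
    rw [e]
    refine hb v' hv' u' hu' _ (H.imp_right fun H => ⟨H.1, ?_⟩)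
    rw [Units.val_mul, Units.val_mul, det_mul, det_mul, H.2.1, val_tL, val_dgl]
    simpa [Units.ext_iff, -Units.val_eq_one] using H.2.2
  have good : ∀ r p z (Λ : GL (Fin 2) K) u,
      z ∈ ρ.U {r | LinearMap.proj (R := ℤ) b (C.vec r) ≤ -2} → u ∈ ρ.UJ {b} → Λ.1.det = 1 →
      Λ.1.trace = 0 → r * Λ.1 1 1 + p * Λ.1 0 1 ≠ 0 →
      Q (ρ.x (C.neg (C.simple a)) r * ρ.x γ p * z * ψ Λ * u) := by
    intro r p z Λ u hz hu h4 h5 h6
    obtain ⟨t, ht, s, hs, hs'⟩ : ∃ t ≠ 0, ∃ s : Kˣ, (s : K) = 1 + r * t ∧ (s = 1 ∨ s = d) := by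
      by_cases h0 : r = 0
      · exact ⟨1, one_ne_zero, 1, by simp [h0], .inl rfl⟩
      · exact ⟨(d - 1) / r, div_ne_zero (sub_ne_zero.2 (by simpa using hd)) h0, d,
          by field_simp; ring, .inr rfl⟩
    refine mv r p t z s Λ u hz hu hs (.inr ⟨fun e => mul_ne_zero ht h6 ?_, h4, hs'⟩)
    rw [trace_fin_two] at h5
    simp [val_tL, val_dgl, trace_fin_two, vecMul, dotProduct, hs] at e
    linear_combination e - h5
  push Not at hs
  have h4 : ∀ c, (tL (1 : K)).1 ≠ scalar _ c := fun c e => by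
    simpa [val_tL] using congrFun₂ e 1 0
  obtain ⟨P, hP⟩ := isConj_iff.1 ((CF.Cls.isConj_units_iff Λ (tL 1)).2 (isConj_of_eq hs h4
    (by simp [ht, val_tL, trace_fin_two, one_add_one_eq_two, h2]) (by simp [hΛ, val_tL])))
  have hL := hψ.mem_LJ P
  obtain ⟨r₀, r₁, z, hz, e, -⟩ := exists_split _ (by simp) h.ne_neg
    (h.VJ_eq (ρ := ρ) ▸ LJ_conj_mem_VJ hL hv)
  replace hz : z ∈ ρ.U {r | LinearMap.proj (R := ℤ) b (C.vec r) ≤ -2} :=
    ρ.U_mono (fun r hr => h.c1 r hr.1 hr.2.1 hr.2.2) hz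
  have hu' := LJ_conj_mem_UJ hL hu
  refine hQ (ψ P) _ ?_
  rw [show ψ P * (v * ψ Λ * u) * (ψ P)⁻¹ = ψ P * v * (ψ P)⁻¹ * ψ (P * Λ * P⁻¹) *
    (ψ P * u * (ψ P)⁻¹) by rw [map_mul, map_mul, map_inv]; group, hP, e]
  by_cases h5 : r₀ = 0
  swap
  · exact good _ _ _ _ _ hz hu' (by simp [val_tL]) (by
      simp [val_tL, trace_fin_two, one_add_one_eq_two, h2]) (by simpa [val_tL])
  by_cases h6 : r₁ = 0
  swap
  · refine mv _ _ r₁⁻¹ _ 1 _ _ hz hu' (by simp [h5]) (.inl (Units.ext ?_))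
    simp [val_tL, val_dgl, h6, one_add_one_eq_two, h2, one_fin_two]
  rw [h5, h6, ρ.x_zero, ρ.x_zero, one_mul, one_mul] at e ⊢
  have hn := ρ.acts_n (C.simple b) 1
  have hn' := GJ_le_LJ (n_mem_GJ (ρ := ρ) (J := {b}) rfl 1)
  obtain ⟨c, hc'⟩ := hn.exists_conj_x (C.neg (C.simple b))
  obtain ⟨c₃, c₂, z', hz', e', h7⟩ := exists_split (LinearMap.proj b - C.cor (C.simple b))
    (m := -2) (by simp) h.ne_neg (hn.conj_mem_U (fun s (hs : C.vec s b ≤ -2) => by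
      show C.vec _ b - C.A _ _ ≤ _
      rw [← C.A_refl_left, C.refl_self, C.vec_refl]
      simpa [C.vec_simple] using hs) hz)
  replace hz' : z' ∈ ρ.U {r | LinearMap.proj (R := ℤ) a (C.vec r) ≤ -2} :=
    ρ.U_mono (fun r hr => h.c2 r hr.1 hr.2.1 hr.2.2) hz'
  have k1 : ∀ {g z}, g ∈ ρ.LJ {b} → z ∈ ρ.U {r | LinearMap.proj (R := ℤ) a (C.vec r) ≤ -2} →
      g * z * g⁻¹ ∈ ρ.U {r | LinearMap.proj (R := ℤ) a (C.vec r) ≤ -2} := fun hg hz => by
    rw [LJ, sup_comm, mem_U_sup_H] at hg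
    obtain ⟨m, hm, y, hy, rfl⟩ := hg
    have := conj_mem_le (LinearMap.proj a) (by simp)
      (ρ.U_mono (fun r hr => (h.inSub.1 hr).le) hm) (H_conj_mem_U hy hz)
    simpa only [mul_assoc, _root_.mul_inv_rev] using this
  have k2 : ρ.U {r | LinearMap.proj (R := ℤ) a (C.vec r) ≤ -2} ≤
    ρ.U {r | LinearMap.proj (R := ℤ) b (C.vec r) ≤ -2} := ρ.U_mono h.c3
  have k3 : C.vec (C.neg (C.simple a)) = C.vec γ + C.vec (C.simple b) := by
    have := h.add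
    rw [C.vec_neg] at this ⊢
    linear_combination (exp := 1) this
  have k4 : ∀ u, C.vec u ≠ C.vec (C.neg (C.simple a)) + C.vec (C.simple b) := fun u e => by
    have e1 := congrFun e a
    have e2 := congrFun e b
    simp [C.vec_neg, C.vec_simple, h.ne, h.ne.symm] at e1 e2
    exact absurd (C.pos_of_coord (r := u) (i := b) (by omega) a) (by simp [e1])
  obtain ⟨σ, hσ⟩ : ∃ σ : K, (c₃ + C.N (C.simple b) γ * σ * c₂) + c₂ * c ≠ 0 := by
    by_cases h8 : c₂ = 0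
    · refine ⟨0, fun h9 => hr (hc.unique hρ (cm_zero.2 (le_Vi (k2 ?_))))⟩
      rw [show c₃ = 0 by simpa [h8] using h9, h8, ρ.x_zero, ρ.x_zero, one_mul, one_mul] at e'
      convert k1 (inv_mem (mul_mem hn' hL)) (z := z') hz' using 1
      rw [← e', ← e]; group
    · obtain ⟨v, z, h9, h10⟩ := h.n3.resolve_right fun h => h8 (h7 h)
      rw [odd _ (.inr (C.N_abs_three _ _ _ _ _ k3 h9 h10))]
      by_cases h11 : c₃ + c₂ * c = 0
      · exact ⟨1, fun e => h8 (by linear_combination e - h11)⟩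
      · exact ⟨0, by simpa⟩
  have hx := GJ_le_LJ (x_mem_GJ (ρ := ρ) (J := {b}) rfl σ)
  refine hQ (ρ.x (C.simple b) σ * ρ.n (C.simple b) 1) _ ?_
  have e1 := ρ.comm_single k3 k4 (fun u e => h.no u (e.trans (add_comm _ _))) (-σ) c₂
  have e2 := (ρ.commute_of_none (fun e => h.ne (C.simple_injective (C.neg_injective e))) k4 σ c₃).eq
  have e3 := (ρ.commute_of_none (fun e => C.ne_of_add h.add (e.trans (C.neg_neg _))) h.no
    (C.N (C.simple b) γ * σ * c₂) c₂).eq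
  have e4 := hc' 1
  rw [C.refl_neg_self, mul_one] at e4
  rw [neg_neg, ρ.x_neg] at e1
  convert good _ _ _ (tU c) _ (k2 (k1 hx hz')) (LJ_conj_mem_UJ (mul_mem hx hn') hu')
    (by simp [val_tU]) (by simp [val_tU, trace_fin_two, one_add_one_eq_two, h2])
    (by simpa [val_tU] using hσ) using 1
  rw [hψ.tL, hψ.tU, ρ.x_add]
  calc _ = ρ.x (C.simple b) σ * (ρ.n (C.simple b) 1 * z * (ρ.n (C.simple b) 1)⁻¹) *
      (ρ.n (C.simple b) 1 * ρ.x (C.neg (C.simple b)) 1 * (ρ.n (C.simple b) 1)⁻¹) *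
      ρ.n (C.simple b) 1 * (ψ P * u * (ψ P)⁻¹) *
      (ρ.x (C.simple b) σ * ρ.n (C.simple b) 1)⁻¹ := by group
    _ = ρ.x (C.simple b) σ * ρ.x (C.neg (C.simple a)) c₃ * (ρ.x γ c₂ * (ρ.x (C.simple b) σ)⁻¹) *
      ρ.x (C.simple b) σ * z' * (ρ.x (C.simple b) σ)⁻¹ * (ρ.x (C.simple b) σ * ρ.x (C.simple b) c) *
      ρ.n (C.simple b) 1 * (ψ P * u * (ψ P)⁻¹) *
      (ρ.x (C.simple b) σ * ρ.n (C.simple b) 1)⁻¹ := by rw [e', e4]; group
    _ = _ := by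
      rw [e1, e2, mul_assoc (ρ.x _ σ)⁻¹, ← e3, (ρ.x_comm_self _ σ c).eq]; group

open Polynomial in
theorem fpf [Finite K] (hρ : ρ.IsAdj) (hψ : ρ.IsG a b ψ) {A : GL (Fin 2) K} (hA : Ell A.1)
    (h0 : A.1.trace ≠ 0) (h1 : A.1.det ≠ 1) (p : ℕ) [Fact p.Prime] [CharP K p] :
    ¬ p ∣ orderOf (ψ A) ∧ (∀ y ∈ ρ.VJ {b}, Commute (ψ A) y → y = 1) ∧
      ∀ y ∈ ρ.UJ {b}, Commute (ψ A) y → y = 1 := by
  set f : K[X] := Polynomial.C 1 * X ^ 2 + Polynomial.C (-A.1.trace) * X + Polynomial.C A.1.det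
  have hf : f.natDegree = 2 := natDegree_quadratic one_ne_zero
  have : Fact (Irreducible f) := ⟨irreducible_of_degree_le_three_of_not_isRoot (by simp [hf])
    fun c e => hA c (by simpa [f, sub_eq_add_neg] using e)⟩
  have := (AdjoinRoot.powerBasis this.out.ne_zero).finite
  have : Finite (AdjoinRoot f) := Module.finite_of_finite K
  obtain ⟨x, y, P, e, e1, e2, e3⟩ := hA.exists_diag h0 (AdjoinRoot.of f) (x := AdjoinRoot.root f)
    (by simpa [f, sub_eq_add_neg] using AdjoinRoot.mk_self (f := f))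
  generalize AdjoinRoot.of f = i at e e1 e2 e3
  obtain ⟨F, hF, hF'⟩ := isAdj_adRes.exists_field_hom hρ i
  set ρ' := (C.adSt (AdjoinRoot f)).res
  have h3 := ρ'.r3_of_finite
  obtain ⟨ψ', hψ'⟩ := h3.exists_isG h.car
  have e4 := hψ.map_eq hψ' hF' A
  rw [e, map_mul, map_mul, map_inv] at e4
  have k1 : ∀ {x y : (AdjoinRoot f)ˣ}, (x : AdjoinRoot f) + y = i A.1.trace →
      (x : AdjoinRoot f) * y = i A.1.det → (∀ c, i c ≠ x) → x ^ 2 ≠ 1 ∧ x ^ 2 ≠ y := by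
    intro x y e1 e2 e3
    refine ⟨fun e => ?_, fun e => ?_⟩
    · obtain e | e := mul_self_eq_one_iff.1 (show (x : AdjoinRoot f) * x = 1 by
        simpa [sq] using congrArg Units.val e)
      exacts [e3 1 (by simp [e]), e3 (-1) (by simp [e])]
    · have e := congrArg Units.val e
      rw [Units.val_pow_eq_pow_val] at e
      by_cases h : 1 + A.1.trace = 0
      · refine h1 (i.injective ?_)
        have := congrArg i h
        rw [map_add, map_one, map_zero] at this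
        rw [map_one]
        linear_combination -e2 - e + (x - 1) * e1 + (x - 1) * this
      · refine e3 ((A.1.trace + A.1.det) / (1 + A.1.trace)) ?_
        rw [map_div₀, div_eq_iff ((map_ne_zero i).2 h), map_add, map_add, map_one]
        linear_combination -e2 - e + (x - 1) * e1
  have k2 := k1 e1 e2 fun c => (e3 c).1
  have k3 := k1 ((add_comm _ _).trans e1) ((mul_comm _ _).trans e2) fun c => (e3 c).2
  have k4 : x * y ≠ 1 := fun e => h1 (i.injective (by rw [← e2, ← Units.val_mul, e]; simp))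
  have k5 : ∀ S, C.Closed S → C.IsNil S → (∀ r ∈ S, ¬ C.InSub {b} r) →
      (∀ g ∈ ρ'.LJ {b}, ∀ y ∈ ρ'.U S, g * y * g⁻¹ ∈ ρ'.U S) →
      ∀ y ∈ ρ.U S, Commute (ψ A) y → y = 1 := fun S s1 s2 s3 s4 z hz hc => by
    have m1 : F z ∈ ρ'.U S := (ρ.U_le_iff (H := (ρ'.U S).comap F)).2 (fun r hr t => by
      rw [Subgroup.mem_comap, hF']; exact ρ'.x_mem_U hr _) hz
    have m2 := (ρ'.actsT_h (C.simple b) x).mul (ρ'.actsT_h (C.simple a) (x * y))
    rw [← hψ'.dgl_eq] at m2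
    refine hF ((conj_eq_one_iff.1 (m2.eq_one_of_commute faithful_adRes s1 s2 (fun r hr e => ?_)
      (s4 _ (inv_mem (hψ'.mem_LJ P)) _ m1) (by
        have := (hc.map F).map (MulAut.conj (ψ' P)⁻¹)
        simpa [e4, mul_assoc] using this))).trans F.map_one.symm)
    obtain ⟨ε, -, h4⟩ := h.wt r (mt h.inSub.2 (s3 r hr))
    rw [Char.ev_mul, cochar_ev, cochar_ev, ← C.A_def, ← C.A_def, mul_zpow, ← mul_assoc,
      ← _root_.zpow_add] at e
    replace e := congrArg (· ^ ε) e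
    simp only [mul_zpow, ← _root_.zpow_mul, _root_.one_zpow, mul_comm _ ε] at e
    generalize ε * (_ + _) = m at e h4
    generalize ε * _ = n at e h4
    simp only [List.mem_cons, Prod.mk.injEq, List.not_mem_nil, or_false] at h4
    rcases h4 with ⟨rfl, rfl⟩ | ⟨rfl, rfl⟩ | ⟨rfl, rfl⟩ | ⟨rfl, rfl⟩ | ⟨rfl, rfl⟩ | ⟨rfl, rfl⟩ |
      ⟨rfl, rfl⟩ <;> simp only [_root_.zpow_neg, zpow_ofNat, pow_one, pow_zero, one_mul, mul_one,
        inv_mul_eq_one, mul_inv_eq_one] at e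
    exacts [k3.2 e.symm, k3.1 (by simp [e]), k2.1 (by simp [e]), k2.2 e, k4 e, k3.1 e, k2.1 e]
  refine ⟨fun hp => ?_, k5 _ ((C.ideal_radm _).mono fun _ h => Or.inl h.1)
    (C.isNil_neg.mono fun _ h => h.1) (fun _ h => h.2) fun _ hg _ => LJ_conj_mem_VJ hg,
    k5 _ (C.closed_rad _) (C.isNil_rad _) (fun _ h => h.2) fun _ hg _ => LJ_conj_mem_UJ hg⟩
  have := Fintype.ofFinite (AdjoinRoot f)
  have : CharP (AdjoinRoot f) p := charP_of_injective_ringHom i.injective p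
  have k6 : dgl ![x, y] ^ Nat.card (AdjoinRoot f)ˣ = 1 := by
    have : ∀ n : ℕ, dgl ![x, y] ^ n = dgl (![x, y] ^ n) := fun n => by
      induction n with
      | zero => exact Units.ext (by simp [dgl])
      | succ n ih => rw [pow_succ, ih, dgl_mul, pow_succ]
    rw [this]
    exact Units.ext (by simp [dgl])
  have k7 := (CharP.cast_eq_zero_iff (AdjoinRoot f) p _).2 (hp.trans (orderOf_dvd_of_pow_eq_one
    (n := Nat.card (AdjoinRoot f)ˣ) (hF (by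
      rw [map_pow, e4, conj_pow, ← map_pow, k6]; simp))))
  rw [Nat.card_units, Nat.cast_pred Nat.card_pos, Nat.card_eq_fintype_card,
    FiniteField.cast_card_eq_zero] at k7
  simp at k7

theorem class_sq [Finite K] (hρ : ρ.IsAdj) (hC : C.Conn) (hK : 3 ≤ Nat.card K) (p : ℕ)
    [Fact p.Prime] [CharP K p] :
    ∃ x : G, ¬ p ∣ orderOf x ∧ ∀ g ≠ 1, ∃ u v, g = u * x * u⁻¹ * (v * x * v⁻¹) := by
  have h3 := ρ.r3_of_finite
  have : Finite G := by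
    have := h3.finite_Gp hρ.faithful
    exact Finite.of_surjective ρ.Gp.subtype fun g => ⟨⟨g, hρ.gp ▸ Subgroup.mem_top g⟩, rfl⟩
  have : Nonempty B := ⟨a⟩
  obtain ⟨ψ, hψ⟩ := h3.exists_isG h.car
  obtain ⟨d, hd, hd'⟩ : ∃ d : Kˣ, d ≠ 1 ∧ ((2 : K) ≠ 0 → d = -1) := by
    by_cases h2 : (2 : K) = 0
    · have : Nontrivial Kˣ := Finite.one_lt_card_iff_nontrivial.1 (by rw [Nat.card_units]; omega)
      exact (exists_ne 1).imp fun d h => ⟨h, absurd h2⟩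
    · refine ⟨-1, fun e => h2 ?_, fun _ => rfl⟩
      have : (-1 : K) = 1 := congrArg Units.val e
      linear_combination -this
  obtain ⟨A, hA, hd1⟩ := exists_ell d
  obtain ⟨k1, k2, k3⟩ := h.fpf hρ hψ hA (fun e => by
    by_cases h2 : (2 : K) = 0
    · obtain ⟨c, hc⟩ := FiniteField.isSquare_of_char_two (ringChar.eq_iff.2
        (CharTwo.of_one_ne_zero_of_two_eq_zero one_ne_zero h2)) A.1.det
      exact hA c (by rw [e, hc]; linear_combination c ^ 2 * h2)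
    · exact hA 1 (by simp [e, hd1, hd' h2])) (by simpa [hd1] using hd) p
  obtain ⟨w, hw, hw'⟩ := h.w0
  obtain ⟨m, hm⟩ := hψ.exists_conj_inv h3 hw hw' A
  let Q : G → Prop := fun g => ∃ u v, g = u * ψ A * u⁻¹ * (v * ψ A * v⁻¹)
  have hQ : ∀ y g, Q (y * g * y⁻¹) → Q g := by
    rintro y g ⟨u, v, e⟩
    exact ⟨y⁻¹ * u, y⁻¹ * v, by
      calc g = y⁻¹ * (y * g * y⁻¹) * y := by group
        _ = _ := by rw [e]; group⟩
  have hb : ∀ v ∈ ρ.VJ {b}, ∀ u ∈ ρ.UJ {b}, ∀ Λ, Pr A A Λ ∨ Pr A A⁻¹ Λ → Q (v * ψ Λ * u) := by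
    rintro v hv u hu _ (⟨P, R, rfl⟩ | ⟨P, R, rfl⟩)
    · exact exists_conj_mul (hψ.mem_LJ A) (hψ.mem_LJ A) k2 k3 (hψ.mem_LJ P) (hψ.mem_LJ R)
        (by simp) hv hu
    · obtain ⟨y, z, e⟩ := exists_conj_mul (hψ.mem_LJ A) (hψ.mem_LJ A⁻¹) k2 (fun y hy hc => k3 y hy
        (by simpa using hc.inv_left)) (hψ.mem_LJ P) (hψ.mem_LJ R) rfl hv hu
      exact ⟨y, z * m, by simp only [map_mul, map_inv ψ P, map_inv ψ R]; rw [e, hm]; group⟩
  refine ⟨ψ A, k1, fun g hg => ?_⟩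
  obtain ⟨j, -, hj⟩ := exists_sup hρ.faithful (J := Set.univ) (l := g)
    (GJ_le_LJ (by simp [GJ_univ, hρ.gp])) fun hc => hg
      (Subgroup.mem_bot.1 (hρ.center ▸ hc.mem_center hρ.faithful hρ.gp))
  have hJ : insert a {b} = (Set.univ : Set B) :=
    Set.eq_univ_of_forall fun i => (eq_or_ne i b).symm.imp_left (h.all i).1
  obtain ⟨y, -, v, hv, r, hr, hc, l, hl, u, hu, e⟩ := h3.step_one hρ.faithful (J := {b}) h.ne
    (one_mem _) (g := g) (by simp [hJ, GJ_univ, hρ.gp])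
    (hJ ▸ hj.of_ch hC.ch le_rfl trivial trivial)
  obtain ⟨Λ, hΛ, rfl⟩ := hψ.exists_eq (l := l) (by simpa using hl)
  refine hQ y g (e ▸ ?_)
  by_cases h2 : (2 : K) = 0
  · refine h.even h3 hρ.faithful hψ h2 hQ (d := d ^ 2) (fun e => hd ?_) (fun v hv u hu Λ H =>
      hb v hv u hu Λ (H.elim (fun e => .inr ⟨1, 1, by simp [e]⟩) fun H =>
        pr_even h2 hA (by simpa [hd1] using H.2) H.1)) hv hr hc hΛ hu
    have : CharP K 2 := CharTwo.of_one_ne_zero_of_two_eq_zero one_ne_zero h2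
    simpa [CharTwo.neg_eq] using mul_self_eq_one_iff.1
      (show (d : K) * d = 1 by simpa [sq] using congrArg Units.val e)
  · exact hb v hv u hu Λ (pr_odd h2 hA (by simp [hd1, hd' h2]) hΛ)

end Rk2

namespace Tab

/-- The root data of type `B₂` or `G₂`. -/
def ChkR (T : Tab) (γ v z : ℕ) (l : List ℕ) : Prop :=
  (T.l = 2 ∧ γ < T.n ∧ T.car 1 (T.sim 0) = -1 ∧ (∀ i ∈ l, i < T.l) ∧
    (∀ i < T.l, l.foldr T.sref (T.sim i) = T.neg (T.sim i) ∧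
      T.vec (T.neg (T.sim 0)) i = T.vec γ i + T.vec (T.sim 1) i) ∧
    ((v < T.n ∧ z < T.n ∧ ∀ i < T.l, T.vec v i = T.vec γ i - T.vec (T.sim 0) i ∧
      T.vec z i = T.vec v i - T.vec (T.sim 0) i) ∨ -2 < T.vec γ 0 - T.car 0 γ)) ∧
  ∀ r < T.n, (¬ T.pos r → T.vec r 1 = 0 → r = T.neg (T.sim 0)) ∧
    (T.vec r 1 ≤ -1 → r ≠ T.neg (T.sim 1) → r ≠ γ → T.vec r 0 ≤ -2) ∧
    (T.vec r 0 - T.car 0 r ≤ -2 → r ≠ T.neg (T.sim 1) → r ≠ γ → T.vec r 1 ≤ -2) ∧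
    (T.vec r 1 ≤ -2 → T.vec r 0 ≤ -2) ∧
    (¬ ∀ i < T.l, T.vec r i = T.vec γ i + T.vec (T.neg (T.sim 1)) i) ∧
    (T.vec r 1 ≠ 0 → ∃ e ∈ [(1 : ℤ), -1], (e * (T.car 0 r + T.car 1 r), e * T.car 1 r) ∈
      [((-1 : ℤ), (2 : ℤ)), (0, 1), (1, 0), (2, -1), (1, 1), (0, 2), (2, 0)])

set_option synthInstance.maxSize 2000 in
noncomputable instance (T : Tab) (γ v z : ℕ) (l : List ℕ) : Decidable (T.ChkR γ v z l) := by
  unfold ChkR; infer_instance

theorem Cert.class_sq_two {D : Cfsg.Lie.ChevalleyDatum} {T : Tab} (c : Cert D T)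
    (hC : Chev.Good D c.basis) {γ v z : ℕ} {l : List ℕ} (h : T.ChkR γ v z l) {K : Type*}
    [Field K] [Finite K] (hK : 3 ≤ Nat.card K) (p : ℕ) [Fact p.Prime] [CharP K p] :
    ∃ x : D.group K, ¬ p ∣ orderOf x ∧ ∀ g ≠ 1, ∃ u v, g = u * x * u⁻¹ * (v * x * v⁻¹) := by
  obtain ⟨⟨h1, h2, h3, h4, h5, h6⟩, h7⟩ := h
  rw [← c.hl] at h1 h4
  rw [← c.hn] at h2 h6
  lift l to List (Fin D.rank) using h4
  lift γ to Fin D.nroots using h2
  have h8 := fun r : Fin D.nroots => h7 r (c.ltn r)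
  refine Rk2.class_sq (a := ⟨1, by omega⟩) (b := ⟨0, by omega⟩) (γ := γ) ⟨fun i => ?_, ?_, ?_,
    fun r => ?_, fun r => ?_, fun r => ?_, fun r => ?_, fun r e => ?_, ?_, fun r => ?_,
    _, c.basis.wp_mem_W l, fun i => Fin.ext ?_⟩ (c.isLink.isAdj K) hC.conn hK p
  · have := i.2
    simp only [ne_eq, Fin.ext_iff]; omega
  · rw [← RootSys.A_simple_simple, c.A_simple, c.val_simple, h3]
  · funext i
    simp only [Pi.add_apply, c.vec_eq, c.val_neg, c.val_simple, (h5 i (c.ltl i)).2]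
  · simpa only [c.pos_iff, c.vec_eq, Fin.ext_iff, c.val_neg, c.val_simple] using (h8 r).1
  · simpa only [c.vec_eq, ne_eq, Fin.ext_iff, c.val_neg, c.val_simple] using (h8 r).2.1
  · simpa only [c.vec_eq, ne_eq, Fin.ext_iff, c.val_neg, c.val_simple, c.A_simple]
      using (h8 r).2.2.1
  · simpa only [c.vec_eq] using (h8 r).2.2.2.1
  · refine (h8 r).2.2.2.2.1 (c.forall_iff.1 fun i => ?_)
    simpa only [Pi.add_apply, c.vec_eq, c.val_neg, c.val_simple] using congrFun e i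
  · refine h6.imp (fun h => ⟨⟨v, h.1⟩, ⟨z, h.2.1⟩, funext fun i => ?_, funext fun i => ?_⟩)
      fun h => by simpa only [c.vec_eq, c.A_simple] using h
    · simp only [Pi.sub_apply, c.vec_eq, c.val_simple, (h.2.2 i (c.ltl i)).1]
    · simp only [Pi.sub_apply, c.vec_eq, c.val_simple, (h.2.2 i (c.ltl i)).2]
  · simpa only [c.vec_eq, c.A_simple] using (h8 r).2.2.2.2.2
  · rw [c.val_wp, c.val_neg, c.val_simple, (h5 i (c.ltl i)).1]

theorem chkR_G2 : ∃ γ < 12, ∃ v < 12, ∃ z < 12, tabG2.ChkR γ v z [0, 1, 0, 1, 0, 1] := by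
  decide +kernel

theorem chkR_B2 : ∃ γ < 8, tabB2.ChkR γ 0 0 [0, 1, 0, 1] := by decide +kernel

end Tab

end CF.Chev
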