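import Cfsg.Agent.Chev.Thom
import Cfsg.Agent.Chev.ClsOm
import Cfsg.Agent.Chev.Gen2

/-! Class squares in the split simple groups of Lie type. -/

namespace CF.Chev

open Finset

variable {c m n : ℕ}

theorem evO_apply (s : RtO c m) (a : Fin m) : evO s a = dlt s.1.1 a - dlt s.1.2 a := by
  simp [evO, wtO_apply, dlt_comm]

theorem evO_mul_dlt (s : RtO c m) (a x : Fin m) : evO s a * dlt a x = dlt a x ^ 2 * evO s x := by
  obtain rfl | rfl | h := far_or a x
  · by_cases h : 2 * a.val + 1 = m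
    · simp [dlt_mid h]
    · simp [dlt_self h]
  · rw [evO_apply, evO_apply, dlt_rev, dlt_rev, dlt_rev']
    by_cases h : 2 * x.val + 1 = m
    · simp [dlt_mid h]
    · rw [dlt_self h]; ring
  · simp [h.dlt]

theorem sum_dlt {k : ℕ} (hk : 2 * k ≤ m) (x : Fin m) : ∑ a : Fin m with a.val < k, dlt x a =
    if x.val < k then 1 else if m ≤ x.val + k then -1 else 0 := by
  have h1 : ∀ a : Fin m, x.val + a + 1 = m ↔ x.rev = a := fun a => by
    simp only [Fin.ext_iff, Fin.val_rev]; omega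
  simp only [dlt, sum_sub_distrib, h1, Fin.val_inj, sum_ite_eq, mem_filter, mem_univ, true_and,
    Fin.val_rev]
  omega

namespace BaseO

section

variable {B : Type} [Fintype B] [DecidableEq B] (b : BaseO c m B)

theorem evO_refl (r s : RtO c m) : evO (b.cb.refl r s) = evO s - b.cb.A r s • evO r := by
  have := congrArg b.euc.L (b.euc.rs.vec_refl r s)
  rwa [map_sub, map_smul, Euc.L_rs_vec, Euc.L_rs_vec, Euc.L_rs_vec] at this

theorem evO_eq_sum (s : RtO c m) : evO s = ∑ i, b.cb.vec s i • evO (b.simple i) :=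
  (b.euc.L_rs_vec s).symm.trans (b.euc.L_apply _)

/-- The sign changes in the Weyl group. -/
def Sg : Submonoid (Fin m → ℤ) where
  carrier := {e | ∃ w ∈ b.cb.W, ∀ s, evO (w s) = e * evO s}
  one_mem' := ⟨1, one_mem _, fun s => (one_mul _).symm⟩
  mul_mem' := by
    rintro e e' ⟨w, hw, h⟩ ⟨w', hw', h'⟩
    exact ⟨w * w', mul_mem hw hw', fun s => by rw [Equiv.Perm.mul_apply, h, h', mul_assoc]⟩

theorem mem_Sg {r : RtO c m} {a : Fin m} (h : ∀ s, b.cb.A r s • evO r = (2 * evO s a) • wtO a) :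
    (fun x => 1 - 2 * dlt a x ^ 2) ∈ b.Sg :=
  ⟨_, b.cb.refl_mem_W r, fun s => funext fun x => by
    rw [b.evO_refl, h]
    simp only [Pi.sub_apply, Pi.smul_apply, Pi.mul_apply, smul_eq_mul, wtO_apply, dlt_comm x]
    linear_combination (-2) * evO_mul_dlt s a x⟩

end

variable {K G : Type*} [Field K] [Finite K] [Group G] {G' : Type*} [Group G'] {π : G →* G'}

theorem class_sq (b : BaseO c m (Fin n)) {ρ : StRep b.cb K G} (hρ : ρ.Faithful) (hG : ρ.Gp = ⊤)
    (hC : b.cb.Conn) (hK : 9 ≤ Nat.card K) {k : ℕ} {κ : ℤ} (hk : 1 ≤ k) (hkm : 2 * (k + 1) ≤ m)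
    (hkn : k < n) (hκ : κ = 1 ∨ κ = 2 ∧ c = 2)
    (H1 : ∀ a : Fin m, a.val < k + 1 →
      (fun s => κ * evO s a) ∈ AddSubgroup.closure (Set.range b.cb.A))
    (H2 : ∀ a : Fin m, a.val < k + 1 → ∃ e ∈ b.Sg, ∀ x : Fin m,
      x.val < k + 1 ∨ m ≤ x.val + (k + 1) → e x = 1 - 2 * dlt a x ^ 2)
    (H3 : ∀ i : Fin n, i.val < k → (b.simple i).1.1.val = i ∧ (b.simple i).1.2.val = i + 1)
    (H4 : ∀ i : Fin n, k ≤ i.val → (b.simple i).1.1.val ≤ k ∧ k < (b.simple i).1.2.val)
    (hf : ∀ i j, b.cb.car (Fin.castLE hkn.le i) (Fin.castLE hkn.le j) = (cbA k).car i j)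
    (hπ : Function.Surjective π) (hZ : Subgroup.center G ≤ π.ker) :
    ∃ c : G', ∀ g, ∃ a b, g = a * c * a⁻¹ * (b * c * b⁻¹) := by
  have : Nonempty (Fin n) := ⟨⟨0, by omega⟩⟩
  choose! e he he' using H2
  obtain ⟨w, hw, hw'⟩ := b.Sg.prod_mem (t := univ.filter fun a : Fin m => a.val < k + 1) (f := e)
    fun a ha => he a (mem_filter.1 ha).2
  have h1 : ∀ s (x : Fin m), x.val < k + 1 ∨ m ≤ x.val + (k + 1) → evO (w s) x = - evO s x := by
    intro s x hx
    obtain ⟨a, ha, h⟩ : ∃ a : Fin m, a.val < k + 1 ∧ (a = x ∨ a = x.rev) := hx.elim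
      (fun h => ⟨x, h, .inl rfl⟩) fun h => ⟨x.rev, by simp only [Fin.val_rev]; omega, .inr rfl⟩
    rw [hw', Pi.mul_apply, prod_apply, prod_eq_single a (fun a' h1 h2 => ?_) (fun h => (h (by simpa using ha)).elim),
      he' a ha x hx]
    · have : dlt a x ^ 2 = 1 := by
        simp only [dlt, Fin.ext_iff, Fin.val_rev] at h ⊢; split_ifs <;> omega
      rw [this]; ring
    · have h3 := (mem_filter.1 h1).2
      rw [he' a' h3 x hx, show dlt a' x = 0 by
        simp only [dlt, Fin.ext_iff, Fin.val_rev, ne_eq] at h h2 ⊢; omega]; rfl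
  set z : Fin m := ⟨0, by omega⟩
  have h2 : ∀ s : RtO c m, ∑ a : Fin m with a.val < k + 1, evO s a = _ := fun s => by
    simp only [evO_apply, sum_sub_distrib, sum_dlt hkm]; rfl
  refine StRep.exists_class_sq hρ hG hC hK hk hf
    (lam := fun s => κ * evO s z + ∑ a : Fin m with a.val < k + 1, κ * evO s a) ?_ (fun s hs h => hs ?_)
    (fun s => ?_) (fun i => ?_) hw (fun s => ?_) (fun i => b.euc.ev_inj (funext fun x => ?_)) hπ hZ
  · refine add_mem (H1 z (by simp [z])) ?_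
    convert sum_mem fun a (ha : a ∈ univ.filter fun a : Fin m => a.val < k + 1) =>
      H1 a (mem_filter.1 ha).2
    rw [Finset.sum_apply]
  · have h3 : ∑ a : Fin m with a.val < k + 1, evO s a = 0 := by
      rw [← mul_sum, ← mul_add, mul_eq_zero, h2, evO_apply] at h
      rw [h2]; simp only [dlt, z] at h; omega
    have h4 : ∀ i, 0 ≤ ∑ a : Fin m with a.val < k + 1, evO (b.simple i) a ∧
        (k ≤ i.val → 0 < ∑ a : Fin m with a.val < k + 1, evO (b.simple i) a) := fun i => by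
      have := H3 i
      have := H4 i
      rw [h2]; omega
    rw [b.evO_eq_sum s] at h3
    simp only [Finset.sum_apply, Pi.smul_apply, smul_eq_mul] at h3
    rw [sum_comm] at h3
    simp only [← mul_sum] at h3
    intro i hi
    have h5 := (h4 i).2 (not_lt.1 fun h => hi ⟨⟨i, h⟩, rfl⟩)
    refine (mul_eq_zero.1 ?_).resolve_right h5.ne'
    obtain h6 | h6 := b.cb.pos_or_neg s
    · exact (sum_eq_zero_iff_of_nonneg fun j _ => mul_nonneg (h6 j) (h4 j).1).1 h3 i (mem_univ _)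
    · exact (sum_eq_zero_iff_of_nonpos fun j _ => mul_nonpos_of_nonpos_of_nonneg (h6 j) (h4 j).1).1
        h3 i (mem_univ _)
  · have := s.2.2
    rw [← mul_sum, ← mul_add, h2, evO_apply]
    simp only [dlt, z]
    obtain rfl | ⟨rfl, rfl⟩ := hκ <;> omega
  · have := H3 (Fin.castLE hkn.le i) i.2
    have := i.2
    rw [← mul_sum, ← mul_add, h2, evO_apply, mul_eq_zero]
    simp only [dlt, z, cb_simple, Fin.val_castLE] at *
    omega
  · rw [h1 s z (by simp [z]), sum_congr rfl fun a ha => by rw [h1 s a (.inl (mem_filter.1 ha).2)]]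
    simp [add_comm]
  · show evO _ x = evO (b.euc.neg _) x
    rw [show evO (b.euc.neg _) = _ from b.euc.ev_neg _]
    by_cases hx : x.val < k + 1 ∨ m ≤ x.val + (k + 1)
    · exact h1 _ x hx
    · have := H3 (Fin.castLE hkn.le i) i.2
      have := i.2
      have : evO (b.simple (Fin.castLE hkn.le i)) x = 0 := by
        simp only [evO_apply, dlt, Fin.val_castLE] at *; omega
      rw [hw', Pi.mul_apply, cb_simple, this, mul_zero]
      exact (neg_eq_zero.2 this).symm

end BaseO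

section

variable {K : Type*} [Field K] [Finite K] (hK : 9 ≤ Nat.card K)
include hK

theorem class_sq_PSp (hn : 2 ≤ n) :
    ∃ c : Cfsg.PSp n K, ∀ g, ∃ a b, g = a * c * a⁻¹ * (b * c * b⁻¹) := by
  have h : ∀ a : Fin (2 * n), ∃ r, evO r = wtO a - wtO a.rev ∧ ∀ s, (bC n).cb.A r s = evO s a :=
    fun a => ((bC n).exists_long a).imp fun r hr =>
      ⟨hr, fun s => by rw [(bC n).A_long hr rfl, evO_apply]⟩
  refine (bC n).class_sq (faithful_spRep n K (by omega)) (spRep_Gp n K) connC hK (k := n - 1)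
    (κ := 1) (by omega) (by omega) (by omega) (.inl rfl) (fun a _ => ?_) (fun a _ => ?_)
    (fun _ _ => ⟨rfl, rfl⟩) (fun i hi => ?_) (fun i j => ?_) (QuotientGroup.mk'_surjective _)
    (QuotientGroup.ker_mk' _).ge
  · obtain ⟨r, -, h2⟩ := h a
    exact AddSubgroup.subset_closure ⟨r, funext fun s => by rw [h2, one_mul]⟩
  · obtain ⟨r, h1, h2⟩ := h a
    exact ⟨_, (bC n).mem_Sg (r := r) fun s => by rw [h1, h2, wtO_rev]; module, fun _ _ => rfl⟩
  · have := i.2
    simp only [baseBC_simple]; omega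
  · have := i.2
    have := j.2
    simp only [cbC_car, cbA_car, Fin.ext_iff, Fin.val_castLE]; omega

theorem exists_ne_one_of_card : ∃ a : K, a ≠ 0 ∧ a ≠ 1 := by
  classical
  obtain ⟨a, ha⟩ := StRep.exists_notMem_six (K := K) (by omega) {0, 1} (card_le_two.trans (by omega))
  exact ⟨a, by simpa using ha⟩

theorem class_sq_POmegaB (hn : 2 ≤ n) : ∃ c : Cfsg.POmega K (Cfsg.quadFormOdd n K),
    ∀ g, ∃ a b, g = a * c * a⁻¹ * (b * c * b⁻¹) := by
  have h : ∀ a : Fin (2 * n + 1), a.val < n - 1 + 1 →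
      ∃ r, evO r = wtO a ∧ ∀ s, (bB n).cb.A r s = 2 * evO s a := fun a ha => by
    have h1 : Far a ⟨n, by omega⟩ := ⟨fun e => by simp [e] at ha; omega, by dsimp only; omega⟩
    obtain ⟨r, hr⟩ := (bB n).exists_far h1
    exact ⟨r, by rw [hr, wtO_mid (a := ⟨n, _⟩) rfl, sub_zero],
      fun s => by rw [(bB n).A_short hr rfl h1 rfl, evO_apply]⟩
  refine (bB n).class_sq (faithful_omRepB hn (exists_ne_one_of_card hK)) (omRepB_Gp _ _) connB hK
    (k := n - 1) (κ := 2) (by omega) (by omega) (by omega) (.inr ⟨rfl, rfl⟩) (fun a ha => ?_)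
    (fun a ha => ?_) (fun _ _ => ⟨rfl, rfl⟩) (fun i hi => ?_) (fun i j => ?_)
    (QuotientGroup.mk'_surjective _) (QuotientGroup.ker_mk' _).ge
  · obtain ⟨r, -, h2⟩ := h a ha
    exact AddSubgroup.subset_closure ⟨r, funext h2⟩
  · obtain ⟨r, h1, h2⟩ := h a ha
    exact ⟨_, (bB n).mem_Sg (r := r) fun s => by rw [h1, h2], fun _ _ => rfl⟩
  · have := i.2
    simp only [baseBC_simple]; omega
  · have := i.2
    have := j.2
    simp only [cbB_car, cbA_car, Fin.ext_iff, Fin.val_castLE]; omega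

theorem class_sq_POmegaD (hn : 3 ≤ n) : ∃ c : Cfsg.POmega K (Cfsg.quadFormPlus n K),
    ∀ g, ∃ a b, g = a * c * a⁻¹ * (b * c * b⁻¹) := by
  set b := baseD n (by omega)
  set z : Fin (2 * n) := ⟨n - 1, by omega⟩
  have h : ∀ a z : Fin (2 * n), Far a z →
      ∃ r, evO r = wtO a - wtO z ∧ ∀ s, b.cb.A r s = evO s a - evO s z := fun a z h =>
    (b.exists_far h).imp fun r hr => ⟨hr, fun s => by
      rw [b.A_reg hr rfl h (ne_mid _) (ne_mid _), evO_apply, evO_apply]; ring⟩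
  have h' : ∀ a : Fin (2 * n), a.val < n - 2 + 1 → Far a z := fun a ha =>
    ⟨fun e => by simp [e, z] at ha; omega, by simp only [z]; omega⟩
  have h3 : ∀ s : RtO 2 (2 * n), evO s z.rev = - evO s z := fun s => by
    simp only [evO_apply, dlt_rev]; ring
  refine b.class_sq (faithful_omRepD K hn) (omRepD_Gp K hn) (connD hn) hK
    (k := n - 2) (κ := 2) (by omega) (by omega) (by omega) (.inr ⟨rfl, rfl⟩) (fun a ha => ?_)
    (fun a ha => ?_) (fun i hi => ?_) (fun i hi => ?_) (fun i j => ?_)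
    (QuotientGroup.mk'_surjective _) (QuotientGroup.ker_mk' _).ge
  · obtain ⟨r, -, h1⟩ := h a z (h' a ha)
    obtain ⟨r', -, h2⟩ := h a z.rev (h' a ha).rev
    convert add_mem (AddSubgroup.subset_closure (k := Set.range b.cb.A) ⟨r, rfl⟩)
      (AddSubgroup.subset_closure ⟨r', rfl⟩)
    rw [Pi.add_apply, h1, h2, h3]; ring
  · obtain ⟨r, k1, h1⟩ := h a z (h' a ha)
    obtain ⟨r', k2, h2⟩ := h a z.rev (h' a ha).rev
    refine ⟨fun x => 1 - 2 * dlt a x ^ 2 - 2 * dlt z x ^ 2, ⟨_, mul_mem (b.cb.refl_mem_W r)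
      (b.cb.refl_mem_W r'), fun s => funext fun x => ?_⟩, fun x hx => ?_⟩
    · rw [Equiv.Perm.mul_apply, b.evO_refl, h1, b.evO_refl, h2, k1, k2, h3, wtO_rev]
      simp only [Pi.sub_apply, Pi.smul_apply, Pi.mul_apply, Pi.neg_apply, smul_eq_mul, wtO_apply,
        dlt_comm x, dlt_self', (h' a ha).dlt, (h' a ha).dlt']
      linear_combination (-2) * evO_mul_dlt s a x - 2 * evO_mul_dlt s z x
    · simp [show dlt z x = 0 by simp only [dlt, z]; omega]
  · simp only [b, baseD_simple, and_true]; omega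
  · have := i.2
    simp only [b, baseD_simple]; omega
  · have := i.2
    have := j.2
    simp only [b, cbD_car, cbA_car, Fin.ext_iff, Fin.val_castLE]; omega

open CF.Classical CF.Cls Polynomial in
theorem class_sq_PSL (hn : 2 ≤ n) : ∃ c : Matrix.ProjectiveSpecialLinearGroup (Fin n) K,
    ∀ g, ∃ a b, g = a * c * a⁻¹ * (b * c * b⁻¹) := by
  classical
  obtain ⟨μ, hμ⟩ := StRep.exists_notMem_six (K := K) (by omega) {0, 1, -1}
    (card_le_three.trans (by omega))
  simp only [mem_insert, mem_singleton, not_or] at hμ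
  have h0 := mul_inv_cancel₀ hμ.1
  have h1 : ((X - C μ⁻¹) * (X - C 1) ^ (n - 2) : K[X]).Monic :=
    (monic_X_sub_C _).mul ((monic_X_sub_C _).pow _)
  have h2 : ((X - C μ⁻¹) * (X - C 1) ^ (n - 2) : K[X]).natDegree = n - 2 + 1 := by
    rw [(monic_X_sub_C _).natDegree_mul ((monic_X_sub_C _).pow _), (monic_X_sub_C _).natDegree_pow,
      natDegree_X_sub_C, natDegree_X_sub_C, mul_one, add_comm]
  obtain ⟨z, k1, k2, k3⟩ := exists_SL_prod_conj (ι := Fin n) h1 (by rw [h2, Fintype.card_fin]; omega)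
    (α := μ) (by
      simp only [eval_mul, eval_pow, eval_sub, eval_X, eval_C]
      refine mul_ne_zero (fun h => ?_) (pow_ne_zero _ (sub_ne_zero.2 hμ.2.1))
      exact (mul_self_eq_one_iff.1 (by linear_combination μ * h + h0)).elim hμ.2.1 hμ.2.2) (by
      rw [h2, coeff_zero_eq_eval_zero]
      simp only [eval_mul, eval_pow, eval_sub, eval_X, eval_C, zero_sub, pow_succ]
      have : (-1 : K) ^ (n - 2) * (-1) ^ (n - 2) = 1 := by rw [← mul_pow]; simp
      linear_combination μ * μ⁻¹ * this + h0)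
  set f : K[X] := (X - C μ) * ((X - C μ⁻¹) * (X - C 1) ^ (n - 2))
  obtain ⟨m, hm⟩ := Nat.exists_eq_succ_of_ne_zero (orderOf_pos z).ne'
  have k4 : z ^ (m + 1) = 1 := by rw [← pow_orderOf_eq_one z, hm]
  have k5 : z⁻¹ = z ^ m := inv_eq_of_mul_eq_one_left (by rw [← pow_succ, k4])
  have k6 : AdjoinRoot.root f ^ m * AdjoinRoot.root f = 1 := by
    have : f ∣ X ^ (m + 1) - 1 := (aeval_cyc_eq_zero_iff _ _).1 ((k1.aeval_eq_zero_iff _).2 (by
      rw [aeval_toLin', map_eq_zero_iff _ Matrix.toLin'.injective]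
      simpa [sub_eq_zero] using congrArg Subtype.val k4))
    simpa [pow_succ] using AdjoinRoot.mk_eq_mk.2 this
  obtain ⟨w, hw⟩ := isConj_iff.1 (isConj_SL_of_sim k2 k1 (v := z⁻¹) (by
    have := (sim_cyc_aeval (f := f) (p := X ^ m) (q := X ^ m) ((monic_X_sub_C μ).mul h1).ne_zero
      (AdjoinRoot.mk_eq_zero.1 ?_) (AdjoinRoot.mk_eq_mk.1 ?_)).trans (k1.aeval (X ^ m))
    · rw [aeval_toLin'] at this
      simpa [k5] using this
    · have e1 := AdjoinRoot.mk_self (f := f)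
      have e2 := congrArg (AdjoinRoot.of f) h0
      simp only [f, mul_comp, pow_comp, sub_comp, X_comp, C_comp, map_mul, map_pow, map_sub,
        AdjoinRoot.mk_X, AdjoinRoot.mk_C, map_one, one_comp] at e1 e2 ⊢
      generalize AdjoinRoot.root f ^ m = y at k6 ⊢
      rw [show y - 1 = -y * (AdjoinRoot.root f - 1) by linear_combination k6, mul_pow]
      linear_combination y ^ 2 * (-y) ^ (n - 2) * e1 + (-y) ^ (n - 2) * (AdjoinRoot.root f - 1) ^
        (n - 2) * ((1 - y ^ 2) * e2 + ((AdjoinRoot.of f μ + AdjoinRoot.of f μ⁻¹) * y -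
          y * AdjoinRoot.root f - 1) * k6)
    · simp only [pow_comp, X_comp, map_pow, AdjoinRoot.mk_X]
      rw [← mul_one (_ ^ m), ← k6, ← mul_assoc, ← mul_pow, k6, one_pow, one_mul]))
  refine ⟨QuotientGroup.mk z, fun g => ?_⟩
  obtain ⟨g, rfl⟩ := QuotientGroup.mk_surjective g
  by_cases hg : g ∈ Subgroup.center _
  · refine ⟨1, QuotientGroup.mk w, ?_⟩
    rw [(QuotientGroup.eq_one_iff g).2 hg, ← QuotientGroup.mk_inv, ← QuotientGroup.mk_mul,
      ← QuotientGroup.mk_mul, hw]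
    simp
  · obtain ⟨u, v, h⟩ := k3 g hg
    refine ⟨QuotientGroup.mk u, QuotientGroup.mk (v * w), ?_⟩
    rw [h, ← hw]
    simp [mul_assoc]

end

namespace Tab

/-- The cocharacter with coefficients `m`. -/
def lamT (T : Tab) (m : List ℤ) (r : ℕ) : ℤ := sumLt T.l fun j => m.getD j 0 * T.car j r

/-- The data for a class whose square is everything. -/
def ChkT (T : Tab) (l ch : List ℕ) (m : List ℤ) : Prop :=
  (∀ i ∈ l, i < T.l) ∧ 1 ≤ ch.length ∧ (∀ i < ch.length, ch.getD i 0 < T.l ∧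
    (T.lamT m (T.sim (ch.getD i 0)) = 0 ↔ i ≠ 0) ∧
    l.foldr T.sref (T.sim (ch.getD i 0)) = T.neg (T.sim (ch.getD i 0)) ∧
    ∀ j < ch.length, T.car (ch.getD i 0) (T.sim (ch.getD j 0)) =
      if i = j then 2 else if i = j + 1 ∨ j = i + 1 then -1 else 0) ∧
  ∀ r < T.n, (T.lamT m r = 0 → ∀ j < T.l, j ∉ ch → T.vec r j = 0) ∧ (T.lamT m r).natAbs ≤ 7 ∧
    T.lamT m (l.foldr T.sref r) = - T.lamT m r

set_option synthInstance.maxSize 1000 in
noncomputable instance (T : Tab) (l ch : List ℕ) (m : List ℤ) : Decidable (T.ChkT l ch m) := by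
  unfold ChkT; infer_instance

theorem Cert.class_sq {D : Cfsg.Lie.ChevalleyDatum} {T : Tab} (c : Cert D T)
    (hC : Chev.Good D c.basis) {l ch : List ℕ} {m : List ℤ} (h : T.ChkT l ch m) {K : Type*}
    [Field K] [Finite K] (hK : 9 ≤ Nat.card K) :
    ∃ x : D.group K, ∀ g, ∃ a b, g = a * x * a⁻¹ * (b * x * b⁻¹) := by
  obtain ⟨h1, h2, h3, h4⟩ := h
  have := hC.nonempty
  rw [← c.hl] at h1
  lift l to List (Fin D.rank) using h1
  let f : Fin ch.length → Fin D.rank := fun i => ⟨ch.getD i 0, c.hl ▸ (h3 i i.2).1⟩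
  refine StRep.exists_class_sq (c.isLink.faithful_gpRep K) (c.isLink.gpRep_Gp K) hC.conn hK h2
    (f := f) (fun i j => ?_) (lam := fun s => T.lamT m s) ?_ (fun s hs h => hs fun j hj => ?_)
    (fun s => (h4 s (c.ltn s)).2.1) (fun i => ?_) (c.basis.wp_mem_W l) (fun s => ?_)
    (fun i => Fin.ext ?_) (π := .id _) Function.surjective_id ((c.isLink.center_group K).le.trans bot_le)
  · rw [cbA_car, ← RootSys.A_simple_simple, c.A_simple, c.val_simple, (h3 i i.2).2.2.2 j j.2]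
    simp only [Fin.val_inj]
  · convert sum_mem fun j (_ : j ∈ univ) => zsmul_mem (AddSubgroup.subset_closure
      (k := Set.range c.basis.A) ⟨c.basis.simple j, rfl⟩) (m.getD j 0)
    simp only [lamT, sumLt_eq, ← c.hl, Finset.sum_apply, Pi.smul_apply, c.A_simple, smul_eq_mul]
  · rw [c.vec_eq]
    refine (h4 s (c.ltn s)).1 h j (c.ltl j) fun hj' => hj ?_
    obtain ⟨i, hi⟩ := List.get_of_mem hj'
    exact ⟨i, Fin.ext (by simpa [f] using hi)⟩
  · rw [c.val_simple]; exact (h3 i i.2).2.1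
  · rw [c.val_wp]; exact (h4 s (c.ltn s)).2.2
  · rw [c.val_wp, c.val_neg, c.val_simple]; exact (h3 i i.2).2.2.1

theorem chkT_G2 : tabG2.ChkT [0, 1, 0, 1, 0, 1] [0] [-2, -1] := by decide +kernel

theorem chkT_F4 : tabF4.ChkT (List.replicate 6 (List.range 4)).flatten [0, 1] [-5, -6, -7, -3] := by
  decide +kernel

theorem chkT_E6 : tabE6.ChkT [1, 2, 3, 1, 2, 3, 4, 3, 1, 2, 3, 4] [1, 3, 2] [0, 5, 3, 6, 4, 0] := by
  decide +kernel

theorem chkT_E7 : tabE7.ChkT (List.replicate 9 (List.range 7)).flatten [0, 2, 3, 4, 5, 6]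
    [-2, 1, -1, 0, 0, 0, 0] := by
  decide +kernel

theorem chkT_E8 : tabE8.ChkT (List.replicate 15 (List.range 8)).flatten [0, 2, 3, 4, 5, 6, 7]
    [-1, 4, 2, 5, 4, 3, 2, 1] := by
  decide +kernel

end Tab

end CF.Chev
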